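import Cfsg.Agent.Lib.Compute.SB.Pack
import Cfsg.Agent.Lib.Compute.SingleBlock

/-!
# One block for a subgroup of `M24` from computed columns

For a subgroup `H` of the permutations of the 24 points: a type function on packed permutations, representatives of the
classes up to inverses, and for each representative the list of the square roots of its 2-part, on which the parities of
the types are computed.
-/

set_option autoImplicit false

namespace Cfsg.Agent.Lib.Compute.SB

open Cfsg Cfsg.Agent.Lib.Compute.M24 Cfsg.Agent.Lib.Compute.Golay Cfsg.Agent.Lib.Compute.GolayFast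
open Cfsg.Agent.Lib.Compute.SingleBlock

/-- The packed powers. -/
noncomputable def powF (x : ℕ) : ℕ → ℕ
  | 0 => idP
  | n + 1 => forceL (powF x n) (mulF x)

theorem pk_pow (r : P) (n : ℕ) : pk (r ^ n) = powF (pk r) n := by
  induction n with
  | zero => rw [pow_zero, pk_one]; rfl
  | succ n ih =>
    rw [pow_succ', pk_mul, ih]
    rfl

/-- The square roots of a packed permutation in a group, as a tree. -/
structure RootsSpec (H : Subgroup P) (w : ℕ) (T : PTree) : Prop where
  mem : ∀ n ∈ T.toList, ∃ v ∈ H, pk v = n ∧ pk (v * v) = w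
  comp : ∀ v ∈ H, pk (v * v) = w → pk v ∈ T.toList
  nodup : T.toList.Nodup

/-- The parities of the types as bits. -/
noncomputable def colBits (tau : ℕ → ℕ) (y : ℕ) (T : PTree) : ℕ :=
  PTree.xorG (fun n => Nat.pow 2 (tau (mulF n y))) T 0

/-- The condition on the parities. -/
def rkOK (rk : ℕ → ℕ) (tz N : ℕ) : Bool :=
  Nat.blt N (2 ^ 64) && (List.range 64).all fun s => !N.testBit s || Nat.blt (rk tz) (rk s)

/-- The check of a column. -/
noncomputable def colCheck (tau rk : ℕ → ℕ) (y : ℕ) (T : PTree) (tz : ℕ) : Bool :=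
  forceL (colBits tau y T) (rkOK rk tz)

theorem colCheck_spec {tau rk : ℕ → ℕ} {y : ℕ} {T : PTree} {tz : ℕ} (h : colCheck tau rk y T tz = true) (s : ℕ)
    (hs : Odd (T.toList.countP (fun n => tau (mulF n y) == s))) : rk tz < rk s := by
  have h1 : rkOK rk tz (colBits tau y T) = true := h
  simp only [rkOK, Bool.and_eq_true, Nat.blt_eq, List.all_eq_true, List.mem_range] at h1
  obtain ⟨h2, h3⟩ := h1
  have h4 : (colBits tau y T).testBit s = true := by
    rw [colBits, testBit_xorG (fun n => tau (mulF n y)) s T]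
    simpa using hs
  have h5 : s < 64 := by
    by_contra hs64
    have h6 : colBits tau y T < 2 ^ s :=
      lt_of_lt_of_le h2 (Nat.pow_le_pow_right (by norm_num) (by omega))
    rw [Nat.testBit_eq_false_of_lt h6] at h4
    exact absurd h4 (by decide)
  have h7 := h3 s h5
  rw [h4] at h7
  simpa using h7

/-- The count of roots with a given type. -/
theorem card_roots {H : Subgroup P} [Fintype H] [DecidableEq H] {tau : ℕ → ℕ} {w : ℕ} {T : PTree}
    (hT : RootsSpec H w T) (W : H) (hW : pk (W : P) = w) (y : P) (s : ℕ) :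
    (Finset.univ.filter (fun v : H => v * v = W ∧ tau (pk ((v : P) * y)) = s)).card =
      T.toList.countP (fun n => tau (mulF n (pk y)) == s) := by
  classical
  rw [List.countP_eq_length_filter, ← List.toFinset_card_of_nodup (hT.nodup.filter _)]
  refine Finset.card_bij (fun v _ => pk (v : P)) ?_ ?_ ?_
  · intro v hv
    simp only [Finset.mem_filter, Finset.mem_univ, true_and] at hv
    simp only [List.mem_toFinset, List.mem_filter, beq_iff_eq]
    refine ⟨hT.comp _ v.2 ?_, ?_⟩
    · rw [← hW, ← hv.1]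
      rfl
    · rw [← pk_mul]
      exact hv.2
  · intro a _ b _ hab
    exact Subtype.ext (pk_inj hab)
  · intro n hn
    simp only [List.mem_toFinset, List.mem_filter, beq_iff_eq] at hn
    obtain ⟨v, hv, rfl, hv2⟩ := hT.mem n hn.1
    refine ⟨⟨v, hv⟩, ?_, rfl⟩
    simp only [Finset.mem_filter, Finset.mem_univ, true_and]
    refine ⟨Subtype.ext (pk_inj ?_), ?_⟩
    · show pk (v * v) = pk (W : P)
      rw [hv2, hW]
    · rw [pk_mul]
      exact hn.2

/-- What is computed for a representative. -/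
def ColumnOK (H : Subgroup P) (tau rk : ℕ → ℕ) (r : P) : Prop :=
  ∃ (e a : ℕ) (T : PTree), (r ^ (2 * e + 1)) ^ (2 ^ a) = 1 ∧ RootsSpec H (pk (r ^ (2 * e + 1))) T ∧
    colCheck tau rk (pk (r ^ e)⁻¹) T (tau (pk r)) = true

/-- The criterion for one block. -/
theorem sameBlock_main (H : Subgroup P) (tau rk : ℕ → ℕ)
    (hconj : ∀ g ∈ H, ∀ h ∈ H, tau (pk (h * g * h⁻¹)) = tau (pk g))
    (hinv : ∀ g ∈ H, tau (pk g⁻¹) = tau (pk g))
    (Reps : List P) (hreps : ∀ r ∈ Reps, r ∈ H)
    (hcl : ∀ x ∈ H, ∃ r ∈ Reps, ∃ u ∈ H, u * x * u⁻¹ = r ∨ u * x * u⁻¹ = r⁻¹)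
    (hinj : ∀ r ∈ Reps, ∀ r' ∈ Reps, tau (pk r) = tau (pk r') → r = r')
    (hcol : ∀ r ∈ Reps, r ≠ 1 → ColumnOK H tau rk r)
    {M : Ideal AlgInt} (hM : IsPModular 2 M) (χ ψ : IrrCharacter H) :
    SameBlock M (χ : H → ℂ) (ψ : H → ℂ) := by
  classical
  let _ : Fintype H := Fintype.ofFinite H
  set τ : H → ℕ := fun g => tau (pk (g : P)) with hτdef
  have hc1 : ∀ (g h : H), τ (h * g * h⁻¹) = τ g := fun g h => hconj _ g.2 _ h.2
  have hc2 : ∀ g : H, τ g⁻¹ = τ g := fun g => hinv _ g.2
  -- the classes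
  have hcl' : ∀ x : H, ∃ r : H, (r : P) ∈ Reps ∧ (IsConj x r ∨ IsConj x r⁻¹) := by
    intro x
    obtain ⟨r, hr, u, hu, h⟩ := hcl x x.2
    refine ⟨⟨r, hreps r hr⟩, hr, ?_⟩
    rcases h with h | h
    · left
      rw [isConj_iff]
      exact ⟨⟨u, hu⟩, Subtype.ext h⟩
    · right
      rw [isConj_iff]
      exact ⟨⟨u, hu⟩, Subtype.ext h⟩
  have hτconj : ∀ {a b : H}, IsConj a b → τ a = τ b := by
    intro a b h
    obtain ⟨c, rfl⟩ := isConj_iff.1 h
    exact (hc1 a c).symm
  have hτr : ∀ {x r : H}, (IsConj x r ∨ IsConj x r⁻¹) → τ x = τ r := by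
    intro x r h
    rcases h with h | h
    · exact hτconj h
    · rw [hτconj h, hc2]
  have hsep : ∀ g h : H, τ g = τ h → IsConj g h ∨ IsConj g h⁻¹ := by
    intro g h hgh
    obtain ⟨r, hr, h1⟩ := hcl' g
    obtain ⟨r', hr', h2⟩ := hcl' h
    have h3 : τ r = τ r' := by rw [← hτr h1, ← hτr h2, hgh]
    have h4 : r = r' := Subtype.ext (hinj _ hr _ hr' h3)
    subst h4
    have hinv' : ∀ {a b : H}, IsConj a b → IsConj a⁻¹ b⁻¹ := by
      intro a b hab
      obtain ⟨c, rfl⟩ := isConj_iff.1 hab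
      rw [isConj_iff]
      exact ⟨c, by group⟩
    rcases h1 with h1 | h1 <;> rcases h2 with h2 | h2
    · exact Or.inl (h1.trans h2.symm)
    · right
      have := hinv' h2
      rw [inv_inv] at this
      exact h1.trans this.symm
    · right
      have := hinv' h2
      exact h1.trans this.symm
    · exact Or.inl (h1.trans h2.symm)
  have hτ : IsTypeFun τ := ⟨hc1, hc2, hsep⟩
  refine sameBlock_of_triangular hM hτ rk ?_ χ ψ
  intro s z hz hodd
  obtain ⟨r, hr, h1⟩ := hcl' z
  have hr1 : (r : P) ≠ 1 := by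
    intro h
    have hr' : r = 1 := Subtype.ext h
    subst hr'
    rcases h1 with h1 | h1
    · exact hz (isConj_one_right.1 h1.symm)
    · rw [inv_one] at h1
      exact hz (isConj_one_right.1 h1.symm)
  have htpc : tpc τ s z = tpc τ s r := by
    rcases h1 with h1 | h1
    · obtain ⟨c, rfl⟩ := isConj_iff.1 h1
      exact (tpc_conj hτ s z c).symm
    · obtain ⟨c, hc⟩ := isConj_iff.1 h1
      rw [← tpc_inv hτ s r, ← hc]
      exact (tpc_conj hτ s z c).symm
  rw [htpc] at hodd
  rw [hτr h1]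
  obtain ⟨e, a, T, h2, h3, h4⟩ := hcol _ hr hr1
  have h5 : (r ^ (2 * e + 1)) ^ 2 ^ a = 1 := Subtype.ext (by simpa using h2)
  have h6 := tpc_modEq hc1 e a (s := s) h5
  have h7 := card_roots (tau := tau) h3 (r ^ (2 * e + 1)) (by simp) ((r : P) ^ e)⁻¹ s
  have h8 : (Finset.univ.filter (fun v : H => v * v = r ^ (2 * e + 1) ∧ τ (v * (r ^ e)⁻¹) = s)).card =
      (Finset.univ.filter (fun v : H => v * v = r ^ (2 * e + 1) ∧
        tau (pk ((v : P) * ((r : P) ^ e)⁻¹)) = s)).card := by
    congr 1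
  rw [h8, h7] at h6
  refine colCheck_spec h4 s ?_
  have h9 : Nat.ModEq 2 (tpc τ s r) _ := h6
  rcases Nat.odd_iff.1 hodd with h10
  rw [Nat.odd_iff]
  exact Eq.trans (Eq.symm h9) h10

end Cfsg.Agent.Lib.Compute.SB
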