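import Cfsg.Agent.Lib.Compute.SB.Conj

/-!
# Checks on a large tree by separate theorems on its parts
-/

set_option autoImplicit false

namespace Cfsg.Agent.Lib.Compute.SB

open PTree

theorem allK_node {f : ℕ → Bool} {l : PTree} {k : ℕ} {r : PTree} (hl : allK f l = true) (hk : f k = true)
    (hr : allK f r = true) : allK f (node l k r) = true := by
  show ifB (allK f l) (ifB (f k) (allK f r) false) false = true
  rw [hl, hk, hr]
  rfl

theorem foldl_xor_acc (L : List ℕ) (acc : ℕ) : L.foldl Nat.xor acc = Nat.xor acc (L.foldl Nat.xor 0) := by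
  induction L generalizing acc with
  | nil =>
    show acc = acc ^^^ 0
    simp
  | cons a L ih =>
    simp only [List.foldl_cons]
    rw [ih (Nat.xor acc a), ih (Nat.xor 0 a)]
    show (acc ^^^ a) ^^^ _ = acc ^^^ ((0 ^^^ a) ^^^ _)
    rw [Nat.zero_xor, Nat.xor_assoc]

theorem xorG_zero (f : ℕ → ℕ) (t : PTree) (acc : ℕ) : xorG f t acc = Nat.xor acc (xorG f t 0) := by
  rw [xorG_eq, xorG_eq, foldl_xor_acc]

theorem xorG_node {f : ℕ → ℕ} {l : PTree} {k : ℕ} {r : PTree} {Nl Nr N : ℕ} (hl : xorG f l 0 = Nl)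
    (hk : Nat.xor (Nat.xor Nl (f k)) Nr = N) (hr : xorG f r 0 = Nr) : xorG f (node l k r) 0 = N := by
  have h : xorG f (node l k r) 0 = xorG f r (Nat.xor (xorG f l 0) (f k)) := rfl
  rw [h, xorG_zero, hl, hr, hk]

/-- The function of a column. -/
noncomputable def colF (tau : ℕ → ℕ) (y : ℕ) (n : ℕ) : ℕ := Nat.pow 2 (tau (mulF n y))

theorem colCheck_of_bits {tau rk : ℕ → ℕ} {y tz N : ℕ} {T : PTree} (h : xorG (colF tau y) T 0 = N)
    (h2 : rkOK rk tz N = true) : colCheck tau rk y T tz = true := by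
  show rkOK rk tz (colBits tau y T) = true
  have h3 : colBits tau y T = N := h
  rw [h3]
  exact h2

end Cfsg.Agent.Lib.Compute.SB
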