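import Cfsg.Agent.Lib.Compute.SB.MemF

/-!
# Representatives given by packed numbers, certificates of conjugacy, and square roots
-/

set_option autoImplicit false

namespace Cfsg.Agent.Lib.Compute.SB

open Cfsg Cfsg.Agent.Lib.Compute.M24 Cfsg.Agent.Lib.Compute.Golay Cfsg.Agent.Lib.Compute.GolayFast

open Classical in
/-- The element of `M24` with a given packed form. -/
noncomputable def ofP (n : ℕ) : P := if h : memF n = true then (exists_of_memF h).choose else 1

theorem ofP_mem {n : ℕ} (h : memF n = true) : ofP n ∈ M24 := by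
  rw [ofP, dif_pos h]
  exact (exists_of_memF h).choose_spec.1

theorem pk_ofP {n : ℕ} (h : memF n = true) : pk (ofP n) = n := by
  rw [ofP, dif_pos h]
  exact (exists_of_memF h).choose_spec.2

/-- An entry of a table of conjugates: the index of the representative, the sign, the element, the conjugating element. -/
abbrev Ent := ℕ × Bool × ℕ × ℕ

/-- The check of an entry. -/
noncomputable def entOK (memH : ℕ → Bool) (R : List ℕ) (e : Ent) : Bool :=
  memH e.2.2.2 && Nat.blt e.1 R.length &&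
    (bif e.2.1 then Nat.beq (mulF (mulF e.2.2.1 e.2.2.2) (R.getD e.1 0)) e.2.2.2
      else Nat.beq (mulF e.2.2.1 e.2.2.2) (mulF e.2.2.2 (R.getD e.1 0)))

section

variable {H : Subgroup P} {memH : ℕ → Bool} {R : List ℕ}

/-- What is derived from an entry. -/
theorem conj_of_ent (hmem : ∀ n, memH n = true → ∃ σ ∈ H, pk σ = n)
    (hR : ∀ n ∈ R, memF n = true) {e : Ent} (he : entOK memH R e = true) {x : P}
    (hx : e.2.2.1 = pk x) :
    ∃ r ∈ R.map ofP, ∃ u ∈ H, u * x * u⁻¹ = r ∨ u * x * u⁻¹ = r⁻¹ := by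
  obtain ⟨j, sg, y, c⟩ := e
  simp only [entOK, Bool.and_eq_true, Nat.blt_eq] at he hx
  obtain ⟨⟨h1, h2⟩, h3⟩ := he
  obtain ⟨γ, hγ, rfl⟩ := hmem c h1
  have hj : R.getD j 0 ∈ R := by
    rw [List.getD_eq_getElem _ _ h2]
    exact List.getElem_mem h2
  have hr := hR _ hj
  refine ⟨ofP (R.getD j 0), List.mem_map.2 ⟨_, hj, rfl⟩, γ⁻¹, H.inv_mem hγ, ?_⟩
  have hrL := pk_ofP hr
  cases sg with
  | false =>
    left
    simp only [cond_false, Nat.beq_eq] at h3
    rw [hx, ← hrL, ← pk_mul, ← pk_mul] at h3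
    have h4 := pk_inj h3
    rw [inv_inv, mul_assoc, h4]
    group
  | true =>
    right
    simp only [cond_true, Nat.beq_eq] at h3
    rw [hx, ← hrL, ← pk_mul, ← pk_mul] at h3
    have h4 := pk_inj h3
    have h5 : x * γ = γ * (ofP (R.getD j 0))⁻¹ := eq_mul_inv_iff_mul_eq.2 h4
    rw [inv_inv, mul_assoc, h5]
    group

/-- Finish with a conjugate which is in a table. -/
theorem classify_of_ent (hmem : ∀ n, memH n = true → ∃ σ ∈ H, pk σ = n)
    (hR : ∀ n ∈ R, memF n = true) {e : Ent} (he : entOK memH R e = true) {x y u : P} (hu : u ∈ H)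
    (hxy : u * x * u⁻¹ = y) (hy : e.2.2.1 = pk y) :
    ∃ r ∈ R.map ofP, ∃ u ∈ H, u * x * u⁻¹ = r ∨ u * x * u⁻¹ = r⁻¹ := by
  obtain ⟨r, hr, v, hv, h⟩ := conj_of_ent hmem hR he hy
  refine ⟨r, hr, v * u, H.mul_mem hv hu, ?_⟩
  have e1 : v * u * x * (v * u)⁻¹ = v * y * v⁻¹ := by
    rw [← hxy]
    group
  rw [e1]
  exact h

end

/-- The square roots in a stabilizer of points. -/
theorem rootsSpec_of {H : Subgroup P} {F : List ℕ} (hF : ∀ v, v ∈ H ↔ v ∈ fixIn M24 F) (hF24 : ∀ i ∈ F, i < 24) {w : ℕ}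
    {T : PTree} {D : LD} {Fend : List ℕ} (hend : ∀ g ∈ fixIn M24 Fend, g = 1) {lvs : List Level}
    (h2 : PTree.allK (fun n => memF n && F.all (fun i => Nat.beq (getP n i) i) && Nat.beq (mulF n n) w) T = true)
    (h3 : T.bdd 0 (2 ^ 120) = true)
    (h4 : chainCheckTo inM24 [] Fend F lvs = true) (h5 : wfD w F lvs D = true)
    (h6 : dfsP w (Qroot w T) D idP = true) : RootsSpec H w T where
  mem := by
    intro n hn
    have h7 := PTree.allK_iff.1 h2 n hn
    simp only [Bool.and_eq_true, List.all_eq_true, Nat.beq_eq] at h7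
    obtain ⟨⟨h8, h9⟩, h10⟩ := h7
    obtain ⟨σ, hσ, rfl⟩ := exists_of_memF h8
    refine ⟨σ, (hF σ).2 ⟨hσ, fun i hi => ?_⟩, rfl, ?_⟩
    · have h12 := h9 i hi
      rw [getP_pk_lt σ (hF24 i hi)] at h12
      have := congrArg idxPt h12
      rwa [idxPt_ptIdx] at this
    · rw [pk_mul, h10]
  comp := by
    intro v hv hvw
    exact roots_comp ctxM24 hend h4 h5 h6 ((hF v).1 hv) hvw
  nodup := (PTree.bdd_spec h3).1

/-- The column of a representative from the computed facts. -/
theorem column_of {H : Subgroup P} {tau rk : ℕ → ℕ} {n o e a w y tz : ℕ} {T : PTree} (hn : memF n = true)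
    (hle : e ≤ o)
    (h1 : powF n o = idP) (h2 : powF n (2 * e + 1) = w) (h3 : powF w (2 ^ a) = idP) (h4 : powF n (o - e) = y)
    (h5 : tau n = tz)
    (hT : RootsSpec H w T) (hc : colCheck tau rk y T tz = true) : ColumnOK H tau rk (ofP n) := by
  have hpk := pk_ofP hn
  set r := ofP n with hr
  have hw : pk (r ^ (2 * e + 1)) = w := by rw [pk_pow, hpk, h2]
  refine ⟨e, a, T, ?_, ?_, ?_⟩
  · apply pk_inj
    rw [pk_pow, hw, h3, pk_one]
  · rw [hw]
    exact hT
  · have h6 : r ^ o = 1 := by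
      apply pk_inj
      rw [pk_pow, hpk, h1, pk_one]
    have h7 : (r ^ e)⁻¹ = r ^ (o - e) := by
      rw [inv_eq_iff_mul_eq_one, ← pow_add, Nat.add_sub_cancel' hle, h6]
    rw [h7, pk_pow, hpk, h4, h5]
    exact hc

end Cfsg.Agent.Lib.Compute.SB
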