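import Cfsg.Agent.Lib.Compute.SB.Assemble

/-!
# A search through the stabilizer chain for the elements commuting with a given permutation

A commuting element `v` satisfies `v (w d) = w (v d)`.  When both `d` and `w d` are base points already treated, this is
a condition on the partial product, so that most branches of the chain are cut.
-/

set_option autoImplicit false

namespace Cfsg.Agent.Lib.Compute.SB

open Cfsg Cfsg.Agent.Lib.Compute.M24 Cfsg.Agent.Lib.Compute.Golay Cfsg.Agent.Lib.Compute.GolayFast

/-- The data of a search: the packed transversals, with the conditions to check at each level. -/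
abbrev LD := List (List ℕ × List (ℕ × ℕ))

/-- A test on all the members of a list. -/
noncomputable def allL {α : Type} (f : α → Bool) (l : List α) : Bool :=
  List.rec (motive := fun _ => Bool) true (fun x _ ih => ifB (f x) ih false) l

theorem allL_iff {α : Type} {f : α → Bool} {l : List α} : allL f l = true ↔ ∀ x ∈ l, f x = true := by
  induction l with
  | nil => simp [allL]
  | cons a l ih =>
    have h : allL f (a :: l) = ifB (f a) (allL f l) false := rfl
    rw [h]
    cases h1 : f a
    · simp [ifB_false, h1]
    · simp [ifB_true, h1, ih]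

/-- The conditions at a level. -/
noncomputable def keepC (w a t : ℕ) (C : List (ℕ × ℕ)) : Bool :=
  allL (fun p => Nat.beq (getP a (getP t p.2)) (getP w (getP a (getP t p.1)))) C

/-- The search: all the leaves of the chain which are not cut pass the test. -/
noncomputable def dfsP (w : ℕ) (Q : ℕ → Bool) (D : LD) : ℕ → Bool :=
  List.rec (motive := fun _ => ℕ → Bool) Q
    (fun d _ ih a => allL (fun t => ifB (keepC w a t d.2) (forceL (mulF a t) ih) true) d.1) D

theorem dfsP_cons (w : ℕ) (Q : ℕ → Bool) (T : List ℕ) (C : List (ℕ × ℕ)) (D : LD) (a : ℕ) :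
    dfsP w Q ((T, C) :: D) a = allL (fun t => ifB (keepC w a t C) (dfsP w Q D (mulF a t)) true) T := rfl

/-- The form of the data of a search. -/
def wfD (w : ℕ) : List ℕ → List Level → LD → Bool
  | _, [], [] => true
  | F, lv :: lvs, (T, C) :: D =>
    T == lv.T.map packL &&
      C.all (fun p => (lv.b :: F).contains p.1 && (lv.b :: F).contains p.2 && Nat.blt p.1 24 && Nat.blt p.2 24 &&
        Nat.beq (getP w p.1) p.2) &&
      wfD w (lv.b :: F) lvs D
  | _, _, _ => false

theorem getP_pk_lt (σ : P) {i : ℕ} (hi : i < 24) : getP (pk σ) i = ptIdx (σ (idxPt i)) :=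
  getP_toL σ hi

theorem dfs_sound {K : Subgroup P} {memK : List ℕ → Bool} {E : List ℕ} (ctx : Ctx K memK E) {Fend : List ℕ}
    (hend : ∀ g ∈ fixIn K Fend, g = 1) {Q : ℕ → Bool} (W : P) :
    ∀ (lvs : List Level) (F : List ℕ) (D : LD), chainCheckTo memK E Fend F lvs = true → wfD (pk W) F lvs D = true →
      ∀ a : P, dfsP (pk W) Q D (pk a) = true → ∀ g ∈ fixIn K F, (a * g) * W = W * (a * g) →
        Q (pk (a * g)) = true := by
  intro lvs
  induction lvs with
  | nil =>
    intro F D h hwf a hQ g hg _
    simp only [chainCheckTo, beq_iff_eq] at h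
    subst h
    cases D with
    | nil =>
      rw [hend g hg, mul_one]
      exact hQ
    | cons d D => simp [wfD] at hwf
  | cons lv lvs ih =>
    intro F D h hwf a hQ g hg hcomm
    simp only [chainCheckTo, Bool.and_eq_true] at h
    cases D with
    | nil => simp [wfD] at hwf
    | cons d D =>
      obtain ⟨T, C⟩ := d
      simp only [wfD, Bool.and_eq_true, beq_iff_eq, List.all_eq_true] at hwf
      obtain ⟨⟨hT, hC⟩, hwf⟩ := hwf
      have hb24 : lv.b < 24 := by
        have := h.1
        simp only [levelCheck, Bool.and_eq_true, Nat.blt_eq] at this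
        exact this.1.1.1.1.2
      obtain ⟨L, hL, hLb⟩ := List.mem_map.1 (level_sub ctx h.1 g hg)
      obtain ⟨hv, t, ht, hc⟩ := level_sup ctx h.1 hL
      have ht2 : t (idxPt lv.b) = g (idxPt lv.b) := by
        rw [hc (idxPt lv.b), ptIdx_idxPt hb24, hLb, idxPt_ptIdx]
      have hmem : t⁻¹ * g ∈ fixIn K (lv.b :: F) := by
        refine ⟨K.mul_mem (K.inv_mem ht.1) hg.1, fun i hi => ?_⟩
        rcases List.mem_cons.1 hi with rfl | hi
        · rw [Equiv.Perm.mul_apply, ← ht2]
          simp
        · have h1 := hg.2 i hi
          have h2 := ht.2 i hi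
          rw [Equiv.Perm.mul_apply, h1, Equiv.Perm.inv_eq_iff_eq, h2]
      have hLt : L = toL t := toL_eq_of_codes hv hc
      have hpt : packL L = pk t := by rw [hLt]; rfl
      have hagree : ∀ d ∈ lv.b :: F, t (idxPt d) = g (idxPt d) := by
        intro d hd
        rcases List.mem_cons.1 hd with rfl | hd
        · exact ht2
        · rw [hg.2 d hd, ht.2 d hd]
      have htT : pk t ∈ T := by
        rw [hT, ← hpt]
        exact List.mem_map.2 ⟨L, hL, rfl⟩
      rw [dfsP_cons, allL_iff] at hQ
      have hQt := hQ _ htT
      have hkeep : keepC (pk W) (pk a) (pk t) C = true := by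
        rw [keepC, allL_iff]
        intro p hp
        have hp' := hC p hp
        simp only [Bool.and_eq_true, List.contains_iff_mem, Nat.blt_eq, Nat.beq_eq] at hp'
        obtain ⟨⟨⟨⟨hd, hd'⟩, hd24⟩, hd'24⟩, hw⟩ := hp'
        rw [Nat.beq_eq]
        have e1 : ∀ d, d ∈ lv.b :: F → d < 24 →
            getP (pk a) (getP (pk t) d) = ptIdx ((a * g) (idxPt d)) := by
          intro d hd hd24
          rw [getP_pk_lt t hd24, getP_pk_lt a (ptIdx_lt _), idxPt_ptIdx, hagree d hd]
          rfl
        rw [e1 _ hd' hd'24, e1 _ hd hd24, getP_pk_lt W (ptIdx_lt _), idxPt_ptIdx]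
        rw [getP_pk_lt W hd24] at hw
        have e2 : idxPt p.2 = W (idxPt p.1) := by
          rw [← hw, idxPt_ptIdx]
        rw [e2]
        have := congrArg (fun f : P => f (idxPt p.1)) hcomm
        simp only [Equiv.Perm.mul_apply] at this ⊢
        rw [this]
      rw [hkeep, ifB_true, ← pk_mul] at hQt
      have := ih _ D h.2 hwf (a * t) hQt _ hmem (by
        have heq : a * t * (t⁻¹ * g) = a * g := by group
        rw [heq]
        exact hcomm)
      have heq : a * t * (t⁻¹ * g) = a * g := by group
      rwa [heq] at this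

/-- The test on the leaves for the square roots. -/
noncomputable def Qroot (w : ℕ) (T : PTree) (n : ℕ) : Bool :=
  ifB (Nat.beq (mulF n n) w) (PTree.find n T) true

/-- The elements of the group with a given square lie in the tree. -/
theorem roots_comp {K : Subgroup P} {memK : List ℕ → Bool} {E : List ℕ} (ctx : Ctx K memK E) {Fend : List ℕ}
    (hend : ∀ g ∈ fixIn K Fend, g = 1) {lvs : List Level} {F : List ℕ} {D : LD} {w : ℕ} {T : PTree}
    (h1 : chainCheckTo memK E Fend F lvs = true) (h2 : wfD w F lvs D = true) (h3 : dfsP w (Qroot w T) D idP = true)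
    {v : P} (hv : v ∈ fixIn K F) (hvw : pk (v * v) = w) : pk v ∈ T.toList := by
  subst hvw
  have h4 := dfs_sound ctx hend (Q := Qroot (pk (v * v)) T) (v * v) lvs F D h1 h2 1 (by rw [pk_one]; exact h3) v hv
    (by rw [one_mul]; group)
  rw [one_mul] at h4
  have h5 : Qroot (pk (v * v)) T (pk v) = ifB (Nat.beq (mulF (pk v) (pk v)) (pk (v * v))) (PTree.find (pk v) T) true := rfl
  rw [h5, ← pk_mul] at h4
  have h6 : Nat.beq (pk (v * v)) (pk (v * v)) = true := by simp
  rw [h6, ifB_true] at h4
  exact PTree.mem_of_find h4

end Cfsg.Agent.Lib.Compute.SB
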