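import Cfsg.Agent.Lib.Compute.SB.Dfs

/-!
# A fast membership test for `M24` on packed permutations, and the covering of candidates
-/

set_option autoImplicit false

namespace Cfsg.Agent.Lib.Compute.SB

open Cfsg Cfsg.Agent.Lib.Compute.M24 Cfsg.Agent.Lib.Compute.Golay Cfsg.Agent.Lib.Compute.GolayFast
open PTree

/-- The octads as a tree. -/
def octT : PTree := (node (node (node (node (node (node (node (node (node (node leaf (nat_lit 5279) leaf) (nat_lit 10558) leaf) (nat_lit 15777) (node (node leaf (nat_lit 18147) leaf) (nat_lit 21116) leaf)) (nat_lit 31554) (node (node (node leaf (nat_lit 36294) leaf) (nat_lit 39257) leaf) (nat_lit 42232) (node (node leaf (nat_lit 45159) leaf) (nat_lit 52005) leaf))) (nat_lit 57883) (node (node (node (node leaf (nat_lit 63108) leaf) (nat_lit 69395) leaf) (nat_lit 72588) (node (node leaf (nat_lit 75309) leaf) (nat_lit 78514) leaf)) (nat_lit 84464) (node (node (node leaf (nat_lit 90318) leaf) (nat_lit 95313) leaf) (nat_lit 99029) (node (node leaf (nat_lit 104010) leaf) (nat_lit 115766) leaf)))) (nat_lit 118953) (node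 (node (node (node (node leaf (nat_lit 126216) leaf) (nat_lit 133817) leaf) (nat_lit 138790) (node (node leaf (nat_lit 140167) leaf) (nat_lit 145176) leaf)) (nat_lit 150618) (node (node (node leaf (nat_lit 153797) leaf) (nat_lit 157028) leaf) (nat_lit 168928) (node (node leaf (nat_lit 175681) leaf) (nat_lit 180636) leaf))) (nat_lit 185603) (node (node (node (node leaf (nat_lit 190626) leaf) (nat_lit 198058) leaf) (nat_lit 201013) (node (node leaf (nat_lit 208020) leaf) (nat_lit 210955) leaf)) (nat_lit 213833) (node (node (node leaf (nat_lit 231532) leaf) (nat_lit 237906) leaf) (nat_lit 252432) (node (node leaf (nat_lit 262637) leaf) (nat_lit 267634) leaf))))) (nat_lit 272595) (node (node (node (node (node (node leaf (nat_lit 277580) leaf) (nat_lit 280334) leaf) (nat_lit 283537) (node (node leaf (nat_lit 290352) leaf) (nat_lit 298027) leaf)) (nat_lit 301236) (node (node (node leaf (nat_lit 304405) leaf) (nat_lit 307594) leaf) (nat_lit 314056) (node (node leaf (nat_lit 334433) leaf) (nat_lit 337856) leaf))) (nat_lit 346141) (node (node (node (node leaf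 (nat_lit 351362) leaf) (nat_lit 352547) leaf) (nat_lit 361272) (node (node leaf (nat_lit 371206) leaf) (nat_lit 381252) leaf)) (nat_lit 396116) (node (node (node leaf (nat_lit 402026) leaf) (nat_lit 416040) leaf) (nat_lit 418953) (node (node leaf (nat_lit 421910) leaf) (nat_lit 427666) leaf)))) (nat_lit 430605) (node (node (node (node (node leaf (nat_lit 442481) leaf) (nat_lit 459847) leaf) (nat_lit 463064) (node (node leaf (nat_lit 475812) leaf) (nat_lit 493953) leaf)) (nat_lit 504864) (node (node (node leaf (nat_lit 525274) leaf) (nat_lit 530245) leaf) (nat_lit 535268) (node (node leaf (nat_lit 542009) leaf) (nat_lit 545190) leaf))) (nat_lit 551943) (node (node (node (node leaf (nat_lit 555160) leaf) (nat_lit 560668) leaf) (nat_lit 563843) (node (node leaf (nat_lit 567074) leaf) (nat_lit 580704) leaf)) (nat_lit 582081) (node (node (node leaf (nat_lit 593097) leaf) (nat_lit 596054) leaf) (nat_lit 602472) (node leaf (nat_lit 608810) leaf)))))) (nat_lit 615188) (node (node (node (node (node (node (node leaf (nat_lit 622863) leaf) (nat_lit 628112) leaf)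 (nat_lit 632881) (node (node leaf (nat_lit 657763) leaf) (nat_lit 663645) leaf)) (nat_lit 668866) (node (node (node leaf (nat_lit 675712) leaf) (nat_lit 684577) leaf) (nat_lit 689317) (node (node leaf (nat_lit 692282) leaf) (nat_lit 702724) leaf))) (nat_lit 705094) (node (node (node (node leaf (nat_lit 722544) leaf) (nat_lit 737427) leaf) (nat_lit 742412) (node (node leaf (nat_lit 762504) leaf) (nat_lit 786999) leaf)) (nat_lit 792232) (node (node (node leaf (nat_lit 797449) leaf) (nat_lit 804052) leaf) (nat_lit 806987) (node (node leaf (nat_lit 832080) leaf) (nat_lit 837906) leaf)))) (nat_lit 843820) (node (node (node (node (node leaf (nat_lit 855332) leaf) (nat_lit 861210) leaf) (nat_lit 864389) (node (node leaf (nat_lit 884962) leaf) (nat_lit 902657) leaf)) (nat_lit 919694) (node (node (node leaf (nat_lit 924689) leaf) (nat_lit 926128) leaf) (nat_lit 951624) (node (node leaf (nat_lit 987906) leaf) (nat_lit 1009728) leaf))) (nat_lit 1050548) (node (node (node (node leaf (nat_lit 1053483) leaf) (nat_lit 1060490) leaf) (nat_lit 1063445) (node (node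 leaf (nat_lit 1065303) leaf) (nat_lit 1070536) leaf)) (nat_lit 1075305) (node (node (node leaf (nat_lit 1084018) leaf) (nat_lit 1090380) leaf) (nat_lit 1100945) (node (node leaf (nat_lit 1103886) leaf) (nat_lit 1110320) leaf))))) (nat_lit 1116327) (node (node (node (node (node (node leaf (nat_lit 1121336) leaf) (nat_lit 1122713) leaf) (nat_lit 1127686) (node (node leaf (nat_lit 1134148) leaf) (nat_lit 1148257) leaf)) (nat_lit 1161408) (node (node (node leaf (nat_lit 1164162) leaf) (nat_lit 1182989) leaf) (nat_lit 1186194) (node (node leaf (nat_lit 1188915) leaf) (nat_lit 1192108) leaf))) (nat_lit 1204944) (node (node (node (node leaf (nat_lit 1212619) leaf) (nat_lit 1217620) leaf) (nat_lit 1230376) (node (node leaf (nat_lit 1245726) leaf) (nat_lit 1250945) leaf)) (nat_lit 1256224) (node (node (node leaf (nat_lit 1265762) leaf) (nat_lit 1302533) leaf) (nat_lit 1312345) (node (node leaf (nat_lit 1315526) leaf) (nat_lit 1327290) leaf)))) (nat_lit 1332261) (node (node (node (node (node leaf (nat_lit 1337732) leaf) (nat_lit 1351424) leaf) (nat_lit 1352353)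 (node (node leaf (nat_lit 1369154) leaf) (nat_lit 1378634) leaf)) (nat_lit 1384564) (node (node (node leaf (nat_lit 1405448) leaf) (nat_lit 1410188) leaf) (nat_lit 1413139) (node (node leaf (nat_lit 1445088) leaf) (nat_lit 1454401) leaf))) (nat_lit 1460739) (node (node (node (node leaf (nat_lit 1474854) leaf) (nat_lit 1484824) leaf) (nat_lit 1525008) (node (node leaf (nat_lit 1573998) leaf) (nat_lit 1577201) leaf)) (nat_lit 1584464) (node (node (node leaf (nat_lit 1589901) leaf) (nat_lit 1594898) leaf) (nat_lit 1608104) (node leaf (nat_lit 1613974) leaf))))))) (nat_lit 1618953) (node (node (node (node (node (node (node (node leaf (nat_lit 1647171) leaf) (nat_lit 1661185) leaf) (nat_lit 1664160) (node (node leaf (nat_lit 1675812) leaf) (nat_lit 1687640) leaf)) (nat_lit 1710664) (node (node (node leaf (nat_lit 1722420) leaf) (nat_lit 1728778) leaf) (nat_lit 1737489) (node (node leaf (nat_lit 1769924) leaf) (nat_lit 1805314) leaf))) (nat_lit 1836419) (node (node (node (node leaf (nat_lit 1839388) leaf) (nat_lit 1849378) leaf) (nat_lit 1852256) (node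 (node leaf (nat_lit 1869893) leaf) (nat_lit 1903248) leaf)) (nat_lit 1975812) (node (node (node leaf (nat_lit 2019456) leaf) (nat_lit 2031657) leaf) (nat_lit 2101096) (node (node leaf (nat_lit 2106966) leaf) (nat_lit 2110153) leaf)))) (nat_lit 2115979) (node (node (node (node (node leaf (nat_lit 2120980) leaf) (nat_lit 2121909) leaf) (nat_lit 2126890) (node (node leaf (nat_lit 2130606) leaf) (nat_lit 2135601) leaf)) (nat_lit 2141072) (node (node (node leaf (nat_lit 2147405) leaf) (nat_lit 2150610) leaf) (nat_lit 2162811) (node (node leaf (nat_lit 2168036) leaf) (nat_lit 2173253) leaf))) (nat_lit 2180760) (node (node (node (node leaf (nat_lit 2183687) leaf) (nat_lit 2201890) leaf) (nat_lit 2204803) (node (node leaf (nat_lit 2207772) leaf) (nat_lit 2220640) leaf)) (nat_lit 2229713) (node (node (node leaf (nat_lit 2232654) leaf) (nat_lit 2242672) leaf) (nat_lit 2245426) (node (node leaf (nat_lit 2255372) leaf) (nat_lit 2263063) leaf))))) (nat_lit 2268296) (node (node (node (node (node (node leaf (nat_lit 2269481) leaf) (nat_lit 2296514) leaf) (nat_lit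 2313249) (node (node leaf (nat_lit 2322816) leaf) (nat_lit 2328324) leaf)) (nat_lit 2363013) (node (node (node leaf (nat_lit 2365978) leaf) (nat_lit 2372388) leaf) (nat_lit 2377830) (node (node leaf (nat_lit 2384216) leaf) (nat_lit 2392899) leaf))) (nat_lit 2409888) (node (node (node (node leaf (nat_lit 2422785) leaf) (nat_lit 2425238) leaf) (nat_lit 2430217) (node (node leaf (nat_lit 2435240) leaf) (nat_lit 2460752) leaf)) (nat_lit 2491452) (node (node (node leaf (nat_lit 2494627) leaf) (nat_lit 2501890) leaf) (nat_lit 2512448) (node (node leaf (nat_lit 2531524) leaf) (nat_lit 2564625) leaf)))) (nat_lit 2605066) (node (node (node (node (node leaf (nat_lit 2624690) leaf) (nat_lit 2627629) leaf) (nat_lit 2631052) (node (node leaf (nat_lit 2634003) leaf) (nat_lit 2640465) leaf)) (nat_lit 2654580) (node (node (node leaf (nat_lit 2664522) leaf) (nat_lit 2675464) leaf) (nat_lit 2687905) (node (node leaf (nat_lit 2702848) leaf) (nat_lit 2704706) leaf))) (nat_lit 2738308) (node (node (node (node leaf (nat_lit 2754059) leaf) (nat_lit 2757268) leaf) (nat_lit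 2769128) (node (node leaf (nat_lit 2810896) leaf) (nat_lit 2820376) leaf)) (nat_lit 2826278) (node (node (node leaf (nat_lit 2854977) leaf) (nat_lit 2890176) leaf) (nat_lit 2892897) (node leaf (nat_lit 2908802) leaf)))))) (nat_lit 2916505) (node (node (node (node (node (node (node leaf (nat_lit 2921478) leaf) (nat_lit 2949708) leaf) (nat_lit 2969648) (node (node leaf (nat_lit 3031301) leaf) (nat_lit 3050016) leaf)) (nat_lit 3147996) (node (node (node leaf (nat_lit 3152963) leaf) (nat_lit 3154402) leaf) (nat_lit 3168928) (node (node leaf (nat_lit 3172097) leaf) (nat_lit 3179802) leaf))) (nat_lit 3182981) (node (node (node (node leaf (nat_lit 3189796) leaf) (nat_lit 3216208) leaf) (nat_lit 3227948) (node (node leaf (nat_lit 3237906) leaf) (nat_lit 3246601) leaf)) (nat_lit 3277413) (node (node (node leaf (nat_lit 3294342) leaf) (nat_lit 3297305) leaf) (nat_lit 3322370) (node (node leaf (nat_lit 3328320) leaf) (nat_lit 3351624) leaf)))) (nat_lit 3375280) (node (node (node (node (node leaf (nat_lit 3410225) leaf) (nat_lit 3416079) leaf) (nat_lit 3421328)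 (node (node leaf (nat_lit 3444840) leaf) (nat_lit 3457556) leaf)) (nat_lit 3474978) (node (node (node leaf (nat_lit 3489985) leaf) (nat_lit 3539848) leaf) (nat_lit 3610628) (node (node leaf (nat_lit 3672838) leaf) (nat_lit 3678776) leaf))) (nat_lit 3698756) (node (node (node (node leaf (nat_lit 3704512) leaf) (nat_lit 3719203) leaf) (nat_lit 3736597) (node (node leaf (nat_lit 3739786) leaf) (nat_lit 3806496) leaf)) (nat_lit 3811457) (node (node (node leaf (nat_lit 3951624) leaf) (nat_lit 4038912) leaf) (nat_lit 4063314) (node (node leaf (nat_lit 4196943) leaf) (nat_lit 4202192) leaf))))) (nat_lit 4203377) (node (node (node (node (node (node leaf (nat_lit 4213932) leaf) (nat_lit 4216883) leaf) (nat_lit 4220306) (node (node leaf (nat_lit 4223245) leaf) (nat_lit 4229001) leaf)) (nat_lit 4231958) (node (node (node leaf (nat_lit 4241960) leaf) (nat_lit 4243818) leaf) (nat_lit 4253780) (node (node leaf (nat_lit 4261212) leaf) (nat_lit 4264387) leaf))) (nat_lit 4271202) (node (node (node (node leaf (nat_lit 4282144) leaf) (nat_lit 4287105) leaf) (nat_lit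 4294810) (node (node leaf (nat_lit 4299781) leaf) (nat_lit 4301220) leaf)) (nat_lit 4325622) (node (node (node leaf (nat_lit 4330601) leaf) (nat_lit 4336072) leaf) (nat_lit 4343317) (node (node leaf (nat_lit 4346506) leaf) (nat_lit 4361520) leaf)))) (nat_lit 4367374) (node (node (node (node (node leaf (nat_lit 4370577) leaf) (nat_lit 4403780) leaf) (nat_lit 4409606) (node (node leaf (nat_lit 4415544) leaf) (nat_lit 4424227) leaf)) (nat_lit 4441280) (node (node (node leaf (nat_lit 4459426) leaf) (nat_lit 4465308) leaf) (nat_lit 4470275) (node (node leaf (nat_lit 4476225) leaf) (nat_lit 4485344) leaf))) (nat_lit 4490852) (node (node (node (node leaf (nat_lit 4505735) leaf) (nat_lit 4510744) leaf) (nat_lit 4523185) (node (node leaf (nat_lit 4526126) leaf) (nat_lit 4536592) leaf)) (nat_lit 4538962) (node (node (node leaf (nat_lit 4563017) leaf) (nat_lit 4587803) leaf) (nat_lit 4593028) (node leaf (nat_lit 4597797) leaf)))))))) (nat_lit 4626498) (node (node (node (node (node (node (node (node (node leaf (nat_lit 4645632) leaf) (nat_lit 4656648) leaf) (nat_lit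 4721045) (node (node leaf (nat_lit 4726026) leaf) (nat_lit 4726955) leaf)) (nat_lit 4731956) (node (node (node leaf (nat_lit 4744776) leaf) (nat_lit 4752467) leaf) (nat_lit 4755660) (node (node leaf (nat_lit 4768432) leaf) (nat_lit 4785798) leaf))) (nat_lit 4788761) (node (node (node (node leaf (nat_lit 4800613) leaf) (nat_lit 4819776) leaf) (nat_lit 4845570) (node (node leaf (nat_lit 4850476) leaf) (nat_lit 4860434) leaf)) (nat_lit 4870480) (node (node (node leaf (nat_lit 4900873) leaf) (nat_lit 4921504) leaf) (nat_lit 4924673) (node (node leaf (nat_lit 4982904) leaf) (nat_lit 4989254) leaf)))) (nat_lit 5003780) (node (node (node (node (node leaf (nat_lit 5017889) leaf) (nat_lit 5024896) leaf) (nat_lit 5063048) (node (node leaf (nat_lit 5112513) leaf) (nat_lit 5129250) leaf)) (nat_lit 5210132) (node (node (node leaf (nat_lit 5249380) leaf) (nat_lit 5252293) leaf) (nat_lit 5255258) (node (node leaf (nat_lit 5262104) leaf) (nat_lit 5268006) leaf))) (nat_lit 5275709) (node (node (node (node leaf (nat_lit 5280930) leaf) (nat_lit 5286147) leaf) (nat_lit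 5296705) (node (node leaf (nat_lit 5309160) leaf) (nat_lit 5325835) leaf)) (nat_lit 5329044) (node (node (node leaf (nat_lit 5350928) leaf) (nat_lit 5375810) leaf) (nat_lit 5390753) (node (node leaf (nat_lit 5405696) leaf) (nat_lit 5409412) leaf))))) (nat_lit 5441617) (node (node (node (node (node (node leaf (nat_lit 5476616) leaf) (nat_lit 5508118) leaf) (nat_lit 5511305) (node (node leaf (nat_lit 5514536) leaf) (nat_lit 5538256) leaf)) (nat_lit 5571333) (node (node (node leaf (nat_lit 5621792) leaf) (nat_lit 5640752) leaf) (nat_lit 5652556) (node (node leaf (nat_lit 5709954) leaf) (nat_lit 5770785) leaf))) (nat_lit 5780352) (node (node (node (node leaf (nat_lit 5785794) leaf) (nat_lit 5817604) leaf) (nat_lit 5833010) (node (node leaf (nat_lit 5842956) leaf) (nat_lit 5899416) leaf)) (nat_lit 5902343) (node (node (node leaf (nat_lit 5939296) leaf) (nat_lit 6053905) leaf) (nat_lit 6062602) (node (node leaf (nat_lit 6100032) leaf) (nat_lit 6292775) leaf)))) (nat_lit 6295992) (node (node (node (node (node leaf (nat_lit 6302745) leaf) (nat_lit 6305926)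 leaf) (nat_lit 6308804) (node (node leaf (nat_lit 6326497) leaf) (nat_lit 6337856) leaf)) (nat_lit 6344194) (node (node (node leaf (nat_lit 6359604) leaf) (nat_lit 6365962) leaf) (nat_lit 6379592) (node (node leaf (nat_lit 6406417) leaf) (nat_lit 6429441) leaf))) (nat_lit 6432416) (node (node (node (node leaf (nat_lit 6447171) leaf) (nat_lit 6455896) leaf) (nat_lit 6475812) (node (node leaf (nat_lit 6488205) leaf) (nat_lit 6493202) leaf)) (nat_lit 6554826) (node (node (node leaf (nat_lit 6557781) leaf) (nat_lit 6570537) leaf) (nat_lit 6588684) (node leaf (nat_lit 6594610) leaf)))))) (nat_lit 6644740) (node (node (node (node (node (node (node leaf (nat_lit 6656640) leaf) (nat_lit 6703248) leaf) (nat_lit 6750560) (node (node leaf (nat_lit 6820450) leaf) (nat_lit 6832158) leaf)) (nat_lit 6837377) (node (node (node leaf (nat_lit 6842656) leaf) (nat_lit 6857221) leaf) (nat_lit 6889680) (node (node leaf (nat_lit 6915112) leaf) (nat_lit 6949956) leaf))) (nat_lit 6979970) (node (node (node (node leaf (nat_lit 7079696) leaf) (nat_lit 7145475) leaf) (nat_lit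 7221256) (node (node leaf (nat_lit 7340691) leaf) (nat_lit 7345676) leaf)) (nat_lit 7357552) (node (node (node leaf (nat_lit 7397512) leaf) (nat_lit 7409024) leaf) (nat_lit 7417889) (node (node leaf (nat_lit 7438406) leaf) (nat_lit 7473194) leaf)))) (nat_lit 7479572) (node (node (node (node (node leaf (nat_lit 7612992) leaf) (nat_lit 7622914) leaf) (nat_lit 7767041) (node (node leaf (nat_lit 7864649) leaf) (nat_lit 7903248) leaf)) (nat_lit 8077824) (node (node (node leaf (nat_lit 8126628) leaf) (nat_lit 8391797) leaf) (nat_lit 8394986) (node (node leaf (nat_lit 8398155) leaf) (nat_lit 8401364) leaf))) (nat_lit 8407702) (node (node (node (node leaf (nat_lit 8412681) leaf) (nat_lit 8414120) leaf) (nat_lit 8421811) (node (node leaf (nat_lit 8426796) leaf) (nat_lit 8431757) leaf)) (nat_lit 8436754) (node (node (node leaf (nat_lit 8439632) leaf) (nat_lit 8455014) leaf) (nat_lit 8464984) (node (node leaf (nat_lit 8471941) leaf) (nat_lit 8474906) leaf))))) (nat_lit 8484900) (node (node (node (node (node (node leaf (nat_lit 8490656) leaf) (nat_lit 8499969)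 leaf) (nat_lit 8505411) (node (node leaf (nat_lit 8521420) leaf) (nat_lit 8524371) leaf)) (nat_lit 8536111) (node (node (node leaf (nat_lit 8541360) leaf) (nat_lit 8546577) leaf) (nat_lit 8555274) (node (node leaf (nat_lit 8561204) leaf) (nat_lit 8581192) leaf))) (nat_lit 8592704) (node (node (node (node leaf (nat_lit 8593633) leaf) (nat_lit 8611330) leaf) (nat_lit 8619033) (node (node leaf (nat_lit 8622214) leaf) (nat_lit 8654232) leaf)) (nat_lit 8657159) (node (node (node leaf (nat_lit 8660134) leaf) (nat_lit 8663097) leaf) (nat_lit 8675909) (node (node leaf (nat_lit 8683614) leaf) (nat_lit 8688833) leaf)))) (nat_lit 8694112) (node (node (node (node (node leaf (nat_lit 8704546) leaf) (nat_lit 8716939) leaf) (nat_lit 8721940) (node (node leaf (nat_lit 8733800) leaf) (nat_lit 8773776) leaf)) (nat_lit 8783649) (node (node (node leaf (nat_lit 8796800) leaf) (nat_lit 8798658) leaf) (nat_lit 8834052) (node (node leaf (nat_lit 8849458) leaf) (nat_lit 8855820) leaf))) (nat_lit 8919856) (node (node (node (node leaf (nat_lit 8922769) leaf) (nat_lit 8925710)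 leaf) (nat_lit 8931660) (node (node leaf (nat_lit 8937586) leaf) (nat_lit 8946281) leaf)) (nat_lit 8963210) (node (node (node leaf (nat_lit 8966165) leaf) (nat_lit 8978620) leaf) (nat_lit 8983587) (node leaf (nat_lit 8989058) leaf))))))) (nat_lit 8999616) (node (node (node (node (node (node (node (node leaf (nat_lit 9020484) leaf) (nat_lit 9045270) leaf) (nat_lit 9048457) (node (node leaf (nat_lit 9055272) leaf) (nat_lit 9078992) leaf)) (nat_lit 9112069) (node (node (node leaf (nat_lit 9158944) leaf) (nat_lit 9178690) leaf) (nat_lit 9193633) (node (node leaf (nat_lit 9204992) leaf) (nat_lit 9208708) leaf))) (nat_lit 9240913) (node (node (node (node leaf (nat_lit 9279496) leaf) (nat_lit 9310308) leaf) (nat_lit 9323032) (node (node leaf (nat_lit 9347075) leaf) (nat_lit 9440193) leaf)) (nat_lit 9451104) (node (node (node leaf (nat_lit 9456930) leaf) (nat_lit 9462812) leaf) (nat_lit 9465987) (node (node leaf (nat_lit 9471495) leaf) (nat_lit 9474712) leaf)))) (nat_lit 9486564) (node (node (node (node (node leaf (nat_lit 9503954) leaf) (nat_lit 9506893)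 leaf) (nat_lit 9519665) (node (node leaf (nat_lit 9537812) leaf) (nat_lit 9543722) leaf)) (nat_lit 9568632) (node (node (node leaf (nat_lit 9578566) leaf) (nat_lit 9589508) leaf) (nat_lit 9607201) (node (node leaf (nat_lit 9610624) leaf) (nat_lit 9652360) leaf))) (nat_lit 9701932) (node (node (node (node leaf (nat_lit 9708306) leaf) (nat_lit 9721936) leaf) (nat_lit 9748745) (node (node leaf (nat_lit 9769376) leaf) (nat_lit 9776129) leaf)) (nat_lit 9830549) (node (node (node leaf (nat_lit 9835530) leaf) (nat_lit 9929280) leaf) (nat_lit 9963547) (node (node leaf (nat_lit 9968772) leaf) (nat_lit 9969957) leaf))))) (nat_lit 9998658) (node (node (node (node (node (node leaf (nat_lit 10021376) leaf) (nat_lit 10028808) leaf) (nat_lit 10093218) (node (node leaf (nat_lit 10110017) leaf) (nat_lit 10170384) leaf)) (nat_lit 10232008) (node (node (node leaf (nat_lit 10257456) leaf) (nat_lit 10305542) leaf) (nat_lit 10486557) (node (node leaf (nat_lit 10491778) leaf) (nat_lit 10496547) leaf))) (nat_lit 10506593) (node (node (node (node leaf (nat_lit 10513600) leaf)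 (nat_lit 10525252) leaf) (nat_lit 10537016) (node (node leaf (nat_lit 10543366) leaf) (nat_lit 10554382) leaf)) (nat_lit 10557585) (node (node (node leaf (nat_lit 10560816) leaf) (nat_lit 10584520) leaf) (nat_lit 10619300) (node (node leaf (nat_lit 10625178) leaf) (nat_lit 10630149) leaf)))) (nat_lit 10650722) (node (node (node (node (node leaf (nat_lit 10666625) leaf) (nat_lit 10687016) leaf) (nat_lit 10698836) (node (node leaf (nat_lit 10748656) leaf) (nat_lit 10765331) leaf)) (nat_lit 10768524) (node (node (node leaf (nat_lit 10790408) leaf) (nat_lit 10825794) leaf) (nat_lit 10832640) (node (node leaf (nat_lit 10846245) leaf) (nat_lit 10881097) leaf))) (nat_lit 10916112) (node (node (node (node leaf (nat_lit 11010247) leaf) (nat_lit 11015256) leaf) (nat_lit 11028004) (node (node leaf (nat_lit 11046145) leaf) (nat_lit 11055264) leaf)) (nat_lit 11100169) (node (node (node leaf (nat_lit 11108882) leaf) (nat_lit 11150144) leaf) (nat_lit 11163650) (node leaf (nat_lit 11272490) leaf)))))) (nat_lit 11282452) (node (node (node (node (node (node (node leaf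 (nat_lit 11469952) leaf) (nat_lit 11535529) leaf) (nat_lit 11538486) (node (node leaf (nat_lit 11548936) leaf) (nat_lit 11551306) leaf)) (nat_lit 11575377) (node (node (node leaf (nat_lit 11608708) leaf) (nat_lit 11654144) leaf) (nat_lit 11669008) (node (node leaf (nat_lit 11731203) leaf) (nat_lit 11797828) leaf))) (nat_lit 11831426) (node (node (node (node leaf (nat_lit 11952160) leaf) (nat_lit 12075408) leaf) (nat_lit 12126304) (node (node leaf (nat_lit 12222476) leaf) (nat_lit 12325377) leaf)) (nat_lit 12584506) (node (node (node leaf (nat_lit 12587685) leaf) (nat_lit 12594948) leaf) (nat_lit 12599513) (node (node leaf (nat_lit 12604486) leaf) (nat_lit 12624578) leaf)))) (nat_lit 12638592) (node (node (node (node (node leaf (nat_lit 12641313) leaf) (nat_lit 12650793) leaf) (nat_lit 12656663) (node (node leaf (nat_lit 12661896) leaf) (nat_lit 12685424) leaf)) (nat_lit 12698124) (node (node (node leaf (nat_lit 12717187) leaf) (nat_lit 12720156) leaf) (nat_lit 12726562) (node (node leaf (nat_lit 12733024) leaf) (nat_lit 12747077) leaf))) (nat_lit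 12780432) (node (node (node (node leaf (nat_lit 12849992) leaf) (nat_lit 12861748) leaf) (nat_lit 12871690) (node (node leaf (nat_lit 12880401) leaf) (nat_lit 12912836) leaf)) (nat_lit 12944642) (node (node (node leaf (nat_lit 12985424) leaf) (nat_lit 13009064) leaf) (nat_lit 13062145) (node (node leaf (nat_lit 13108704) leaf) (nat_lit 13121601) leaf))))) (nat_lit 13124355) (node (node (node (node (node (node leaf (nat_lit 13142054) leaf) (nat_lit 13148440) leaf) (nat_lit 13192208) (node (node leaf (nat_lit 13262980) leaf) (nat_lit 13276672) leaf)) (nat_lit 13303882) (node (node (node leaf (nat_lit 13370381) leaf) (nat_lit 13373586) leaf) (nat_lit 13443616) (node (node leaf (nat_lit 13631886) leaf) (nat_lit 13636881) leaf))) (nat_lit 13641904) (node (node (node (node leaf (nat_lit 13667400) leaf) (nat_lit 13703682) leaf) (nat_lit 13721920) (node (node leaf (nat_lit 13771273) leaf) (nat_lit 13811730) leaf)) (nat_lit 13829156) (node (node (node leaf (nat_lit 13893731) leaf) (nat_lit 13911680) leaf) (nat_lit 13938692) (node (node leaf (nat_lit 14156372)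 leaf) (nat_lit 14176296) leaf)))) (nat_lit 14254209) (node (node (node (node (node leaf (nat_lit 14551296) leaf) (nat_lit 14682450) leaf) (nat_lit 14688364) (node (node leaf (nat_lit 14709264) leaf) (nat_lit 14714004) leaf)) (nat_lit 14716939) (node (node (node leaf (nat_lit 14747201) leaf) (nat_lit 14762146) leaf) (nat_lit 14828808) (node (node leaf (nat_lit 14919680) leaf) (nat_lit 14949408) leaf))) (nat_lit 14950785) (node (node (node (node leaf (nat_lit 15073798) leaf) (nat_lit 15207048) leaf) (nat_lit 15274244) (node (node leaf (nat_lit 15335473) leaf) (nat_lit 15515712) leaf)) (nat_lit 15747077) (node (node (node leaf (nat_lit 15762208) leaf) (nat_lit 15864000) leaf) (nat_lit 16056344) (node leaf (nat_lit 16262146) leaf)))))))))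

/-- The points of the words of the reduced basis. -/
def basisPts : List (List ℕ) := [[0,2,3,5,6,7,8,18],[1,3,4,6,7,8,9,19],[2,4,5,7,8,9,10,20],[3,5,6,8,9,10,11,21],[0,1,2,3,6,9,11,22],[1,2,6,7,8,10,11,15],[0,1,4,8,9,10,11,16],[0,3,4,5,7,9,11,17],[0,1,2,3,4,7,10,12],[1,2,3,4,5,8,11,13],[0,1,5,6,7,9,10,14],[0,2,4,5,6,10,11,23]]

theorem octT_code : allK isCode octT = true := by decide +kernel

/-- The packed transversals of the last two levels of the chain. -/
def pL48 : List (List ℕ) := [[nat_lit 984818244535754528103549039458486304,nat_lit 983141956895601025126892051911247904,nat_lit 980504394422866046962412236452235296,nat_lit 969836898326968551397880902883313696,nat_lit 981515887986994088769278604842469408,nat_lit 975754295934893126319599781779965984,nat_lit 971592882964418941354553515258775584,nat_lit 979416905286026856737440949975746592,nat_lit 976448692869377735270425038196672544,nat_lit 968918221426309407724683958819063840,nat_lit 984436632068016323118584907140532256,nat_lit 971863989228759034920585190470420512,nat_lit 965225113279737155758354497310656544,nat_lit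 968621477650857569167789942210922528,nat_lit 963515095949177277443875056653535264,nat_lit 976909097487365034896521273070946336],[nat_lit 984818244535754528103549039458486304,nat_lit 976531636853126291160407323722221600,nat_lit 972606645568131968584696805283956768]]

theorem pL48_eq : pL48 = packT lvl48 := by decide +kernel

theorem packOK_lvl48 : packOK lvl48 = true := by decide +kernel

/-- The union of the bits at the values of a packed permutation at a list of points. -/
noncomputable def orPow (n : ℕ) (pts : List ℕ) : ℕ :=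
  List.rec (motive := fun _ => ℕ) 0 (fun p _ ih => Nat.lor (Nat.pow 2 (getP n p)) ih) pts

theorem orPow_cons (n p : ℕ) (pts : List ℕ) : orPow n (p :: pts) = 2 ^ getP n p ||| orPow n pts := rfl

theorem testBit_orPow (n : ℕ) (pts : List ℕ) (j : ℕ) :
    (orPow n pts).testBit j = true ↔ ∃ p ∈ pts, getP n p = j := by
  induction pts with
  | nil => simp [orPow]
  | cons a l ih =>
    rw [orPow_cons, Nat.testBit_or, Bool.or_eq_true, ih, Nat.testBit_two_pow]
    simp only [decide_eq_true_eq, List.mem_cons, exists_eq_or_imp]

/-- All the points. -/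
def allPts : List ℕ := [0,1,2,3,4,5,6,7,8,9,10,11,12,13,14,15,16,17,18,19,20,21,22,23]

/-- A packed number codes a permutation. -/
noncomputable def validF (n : ℕ) : Bool :=
  ifB (Nat.blt n 1329227995784915872903807060280344576) (Nat.beq (orPow n allPts) 16777215) false

/-- The fast membership test. -/
noncomputable def memF (n : ℕ) : Bool :=
  ifB (validF n) (allL (fun pts => find (orPow n pts) octT) basisPts) false

theorem allPts_eq : allPts = List.range 24 := by decide

theorem unpack_pack (n : ℕ) (k i : ℕ) :
    packL ((List.range' i k).map (getP n)) = (n >>> (5 * i)) % 2 ^ (5 * k) := by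
  induction k generalizing i with
  | zero => simp [packL, Nat.mod_one]
  | succ k ih =>
    rw [List.range'_succ, List.map_cons]
    show getP n i + 32 * packL ((List.range' (i + 1) k).map (getP n)) = _
    rw [ih (i + 1)]
    set X := n >>> (5 * i) with hX
    have h1 : getP n i = X % 32 := by
      show (n >>> (5 * i)) &&& 31 = _
      exact Nat.and_two_pow_sub_one_eq_mod _ 5
    have h2 : n >>> (5 * (i + 1)) = X / 32 := by
      rw [hX, Nat.shiftRight_eq_div_pow, Nat.shiftRight_eq_div_pow, Nat.div_div_eq_div_mul]
      congr 1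
      rw [mul_add, pow_add]
      norm_num
    rw [h1, h2, show 5 * (k + 1) = 5 + 5 * k by ring, pow_add]
    have h3 := Nat.mod_mul (x := X) (a := 2 ^ 5) (b := 2 ^ (5 * k))
    rw [h3, show (2 : ℕ) ^ 5 = 32 by norm_num]

/-- The list of a valid packed number. -/
theorem exists_of_validF {n : ℕ} (h : validF n = true) : ∃ σ : P, pk σ = n := by
  have h1 : Nat.blt n 1329227995784915872903807060280344576 = true := by
    by_contra h2
    rw [Bool.not_eq_true] at h2
    rw [validF, h2, ifB_false] at h
    exact absurd h (by decide)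
  rw [validF, h1, ifB_true, Nat.beq_eq] at h
  rw [Nat.blt_eq] at h1
  set L := (List.range 24).map (getP n) with hL
  have hbit : ∀ j, (orPow n (List.range 24)).testBit j = decide (j < 24) := by
    intro j
    rw [← allPts_eq, h]
    by_cases hj : j < 24
    · rw [decide_eq_true hj]
      have h3 : (16777215 : ℕ) = 2 ^ 24 - 1 := by norm_num
      rw [h3, Nat.testBit_two_pow_sub_one, decide_eq_true hj]
    · rw [decide_eq_false hj]
      have h3 : (16777215 : ℕ) = 2 ^ 24 - 1 := by norm_num
      rw [h3, Nat.testBit_two_pow_sub_one, decide_eq_false hj]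
  have hv : validL L = true := by
    simp only [validL, Bool.and_eq_true, beq_iff_eq, List.all_eq_true, List.contains_iff_mem, Nat.blt_eq, List.mem_range]
    refine ⟨⟨by simp [hL], fun j hj => ?_⟩, fun a ha => ?_⟩
    · have h3 := hbit j
      rw [decide_eq_true hj] at h3
      obtain ⟨p, hp, rfl⟩ := (testBit_orPow n _ j).1 h3
      exact List.mem_map.2 ⟨p, hp, rfl⟩
    · obtain ⟨p, hp, rfl⟩ := List.mem_map.1 ha
      have h3 := hbit (getP n p)
      have h4 : (orPow n (List.range 24)).testBit (getP n p) = true := (testBit_orPow n _ _).2 ⟨p, hp, rfl⟩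
      rw [h4] at h3
      simpa using h3.symm
  obtain ⟨σ, hσ⟩ := exists_perm_of_validL hv
  have h5 := toL_eq_of_codes hv hσ
  refine ⟨σ, ?_⟩
  rw [pk, ← h5, hL, List.range_eq_range', unpack_pack, Nat.mul_zero, Nat.shiftRight_zero]
  exact Nat.mod_eq_of_lt (by simpa using h1)

theorem imgMask_eq_orPow {σ : P} {m : ℕ} {pts : List ℕ} (hm : ∀ i, m.testBit i = pts.contains i) (hpts : ∀ p ∈ pts, p < 24) :
    imgMask (toL (σ : GolayPt → GolayPt)) m = orPow (pk σ) pts := by
  apply Nat.eq_of_testBit_eq
  intro j
  rw [Bool.eq_iff_iff, testBit_imgMask, testBit_orPow]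
  constructor
  · rintro ⟨i, hi, h1, h2⟩
    rw [hm i, List.contains_iff_mem] at h1
    refine ⟨i, h1, ?_⟩
    rw [getP_pk, List.getD_eq_getElem _ _ hi, h2]
  · rintro ⟨p, hp, h1⟩
    have hp24 := hpts p hp
    have hlen : p < (toL (σ : GolayPt → GolayPt)).length := by
      rw [toL_length]
      exact hp24
    refine ⟨p, hlen, ?_, ?_⟩
    · rw [hm p, List.contains_iff_mem]
      exact hp
    · rw [getP_pk, List.getD_eq_getElem _ _ hlen] at h1
      exact h1

theorem basis_pts : ∀ b ∈ redBasis, ∃ pts ∈ basisPts, (∀ i, b.testBit i = pts.contains i) ∧ ∀ p ∈ pts, p < 24 := by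
  have h : redBasis.all (fun b => basisPts.any (fun pts => decide (b < 2 ^ 24) &&
      (List.range 24).all (fun i => b.testBit i == pts.contains i) && pts.all (fun p => Nat.blt p 24))) = true := by
    decide +kernel
  intro b hb
  have h1 := List.all_eq_true.1 h b hb
  obtain ⟨pts, hp, h1⟩ := List.any_eq_true.1 h1
  simp only [Bool.and_eq_true, decide_eq_true_eq, List.all_eq_true, List.mem_range, beq_iff_eq, Nat.blt_eq] at h1
  obtain ⟨⟨h2, h3⟩, h4⟩ := h1
  refine ⟨pts, hp, fun i => ?_, h4⟩
  by_cases hi : i < 24
  · exact h3 i hi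
  · have h5 : b.testBit i = false := Nat.testBit_eq_false_of_lt (lt_of_lt_of_le h2 (Nat.pow_le_pow_right (by norm_num) (by omega)))
    rw [h5]
    symm
    rw [← Bool.not_eq_true, List.contains_iff_mem]
    exact fun hm => hi (h4 i hm)

/-- The test gives an element of `M24`. -/
theorem exists_of_memF {n : ℕ} (h : memF n = true) : ∃ σ ∈ M24, pk σ = n := by
  have h1 : validF n = true := by
    by_contra h2
    rw [Bool.not_eq_true] at h2
    rw [memF, h2, ifB_false] at h
    exact absurd h (by decide)
  rw [memF, h1, ifB_true, allL_iff] at h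
  obtain ⟨σ, rfl⟩ := exists_of_validF h1
  refine ⟨σ, mem_M24_of_inM24 (codes_toL σ) ?_, rfl⟩
  simp only [inM24, Bool.and_eq_true, List.all_eq_true]
  refine ⟨validL_toL σ, fun b hb => ?_⟩
  obtain ⟨pts, hp, h2, h3⟩ := basis_pts b hb
  rw [imgMask_eq_orPow h2 h3]
  have h4 := PTree.mem_of_find (h pts hp)
  exact PTree.allK_iff.1 octT_code _ h4

/-- The check of a list of prefixes on packed elements, with a prescribed action on four base points. -/
noncomputable def patF (Q : ℕ → Bool) (c1 c2 c3 c4 : ℕ) (S : List ℕ) : Bool :=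
  S.all (fun s => memF s && Nat.beq (getP s 23) c1 && Nat.beq (getP s 0) c2 && Nat.beq (getP s 1) c3 &&
      Nat.beq (getP s 2) c4 && allProdP pL48 s Q) &&
    (List.range 24).all (fun w => [c1, c2, c3, c4].contains w || S.any (fun s => Nat.beq (getP s 3) w))

theorem cover_patF {Q : ℕ → Bool} {c1 c2 c3 c4 : ℕ} {S : List ℕ} (h : patF Q c1 c2 c3 c4 S = true)
    (hc1 : c1 < 24) (hc2 : c2 < 24) (hc3 : c3 < 24) (hc4 : c4 < 24) {x : P} (hx : x ∈ M24)
    (h1 : x (idxPt 23) = idxPt c1) (h2 : x (idxPt 0) = idxPt c2) (h3 : x (idxPt 1) = idxPt c3)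
    (h4 : x (idxPt 2) = idxPt c4) : Q (pk x) = true := by
  simp only [patF, Bool.and_eq_true, List.all_eq_true, Nat.beq_eq, Bool.or_eq_true, List.any_eq_true,
    List.contains_iff_mem] at h
  obtain ⟨h5, h6⟩ := h
  set w := ptIdx (x (idxPt 3)) with hw
  have hne : ∀ i, i < 24 → i ≠ 3 → x (idxPt i) ≠ x (idxPt 3) := by
    intro i hi h3i he
    have := x.injective he
    have h7 := congrArg ptIdx this
    rw [ptIdx_idxPt hi, ptIdx_idxPt (by norm_num)] at h7
    exact h3i h7
  have hw1 : w ≠ c1 := by
    intro he
    apply hne 23 (by norm_num) (by norm_num)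
    rw [h1, ← he, hw, idxPt_ptIdx]
  have hw2 : w ≠ c2 := by
    intro he
    apply hne 0 (by norm_num) (by norm_num)
    rw [h2, ← he, hw, idxPt_ptIdx]
  have hw3 : w ≠ c3 := by
    intro he
    apply hne 1 (by norm_num) (by norm_num)
    rw [h3, ← he, hw, idxPt_ptIdx]
  have hw4 : w ≠ c4 := by
    intro he
    apply hne 2 (by norm_num) (by norm_num)
    rw [h4, ← he, hw, idxPt_ptIdx]
  rcases h6 w (List.mem_range.2 (ptIdx_lt _)) with h7 | ⟨s, hs, hsw⟩
  · simp only [List.mem_cons, List.not_mem_nil, or_false] at h7
    rcases h7 with h7 | h7 | h7 | h7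
    · exact absurd h7 hw1
    · exact absurd h7 hw2
    · exact absurd h7 hw3
    · exact absurd h7 hw4
  · obtain ⟨⟨⟨⟨⟨h8, h9⟩, h10⟩, h11⟩, h12⟩, h13⟩ := h5 s hs
    obtain ⟨σ, hσM, rfl⟩ := exists_of_memF h8
    rw [pL48_eq, pk, allProdP_eq lvl48 packOK_lvl48 _ (toL_entries σ)] at h13
    have h14 := cover (fun L => Q (packL L)) hσM h13 hx ?_
    · exact h14
    · have ev : ∀ i, i < 24 → ∀ c, c < 24 → getP (pk σ) i = c → σ (idxPt i) = idxPt c := by
        intro i hi c hc he
        rw [getP_pk_lt σ hi] at he
        rw [← he, idxPt_ptIdx]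
      intro i hi
      simp only [List.mem_cons, List.not_mem_nil, or_false] at hi
      rcases hi with rfl | rfl | rfl | rfl | rfl
      · rw [ev 3 (by norm_num) _ (ptIdx_lt _) hsw, idxPt_ptIdx]
      · rw [ev 2 (by norm_num) _ hc4 h12, h4]
      · rw [ev 1 (by norm_num) _ hc3 h11, h3]
      · rw [ev 0 (by norm_num) _ hc2 h10, h2]
      · rw [ev 23 (by norm_num) _ hc1 h9, h1]

end Cfsg.Agent.Lib.Compute.SB
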