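import Cfsg.Agent.Lib.Compute.SB.Tree
import Cfsg.Agent.Lib.Compute.M24ClassFacts

/-!
# The packed form of a permutation of the 24 points, and its type

The type of a permutation is read from the numbers of fixed points of its powers.  The number of fixed points is computed
by operations on the whole packed number.
-/

set_option autoImplicit false

namespace Cfsg.Agent.Lib.Compute.SB

open Cfsg Cfsg.Agent.Lib.Compute.M24 Cfsg.Agent.Lib.Compute.Golay Cfsg.Agent.Lib.Compute.GolayFast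

/-- The packed form of a permutation. -/
def pk (σ : P) : ℕ := packL (toL (σ : GolayPt → GolayPt))

/-- The product of packed permutations. -/
def mulF (a b : ℕ) : ℕ :=
  Nat.add (Nat.land (Nat.shiftRight a (Nat.mul 5 (Nat.land (Nat.shiftRight b 0) 31))) 31) (Nat.mul 32 (Nat.add (Nat.land (Nat.shiftRight a (Nat.mul 5 (Nat.land (Nat.shiftRight b 5) 31))) 31) (Nat.mul 32 (Nat.add (Nat.land (Nat.shiftRight a (Nat.mul 5 (Nat.land (Nat.shiftRight b 10) 31))) 31) (Nat.mul 32 (Nat.add (Nat.land (Nat.shiftRight a (Nat.mul 5 (Nat.land (Nat.shiftRight b 15) 31))) 31) (Nat.mul 32 (Nat.add (Nat.land (Nat.shiftRight a (Nat.mul 5 (Nat.land (Nat.shiftRight b 20) 31))) 31) (Nat.mul 32 (Nat.add (Nat.land (Nat.shiftRight a (Nat.mul 5 (Nat.land (Nat.shiftRight b 25) 31))) 31) (Nat.mul 32 (Nat.add (Nat.land (Nat.shiftRight a (Nat.mul 5 (Nat.land (Nat.shiftRight b 30) 31))) 31) (Nat.mul 32 (Nat.add (Nat.land (Nat.shiftRight a (Nat.mul 5 (Nat.land (Nat.shiftRight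 b 35) 31))) 31) (Nat.mul 32 (Nat.add (Nat.land (Nat.shiftRight a (Nat.mul 5 (Nat.land (Nat.shiftRight b 40) 31))) 31) (Nat.mul 32 (Nat.add (Nat.land (Nat.shiftRight a (Nat.mul 5 (Nat.land (Nat.shiftRight b 45) 31))) 31) (Nat.mul 32 (Nat.add (Nat.land (Nat.shiftRight a (Nat.mul 5 (Nat.land (Nat.shiftRight b 50) 31))) 31) (Nat.mul 32 (Nat.add (Nat.land (Nat.shiftRight a (Nat.mul 5 (Nat.land (Nat.shiftRight b 55) 31))) 31) (Nat.mul 32 (Nat.add (Nat.land (Nat.shiftRight a (Nat.mul 5 (Nat.land (Nat.shiftRight b 60) 31))) 31) (Nat.mul 32 (Nat.add (Nat.land (Nat.shiftRight a (Nat.mul 5 (Nat.land (Nat.shiftRight b 65) 31))) 31) (Nat.mul 32 (Nat.add (Nat.land (Nat.shiftRight a (Nat.mul 5 (Nat.land (Nat.shiftRight b 70) 31))) 31) (Nat.mul 32 (Nat.add (Nat.land (Nat.shiftRight a (Nat.mul 5 (Nat.land (Nat.shiftRight b 75) 31))) 31) (Nat.mul 32 (Nat.add (Nat.land (Nat.shiftRight a (Nat.mul 5 (Nat.land (Nat.shiftRight b 80) 31))) 31) (Nat.mul 32 (Nat.add (Nat.land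 (Nat.shiftRight a (Nat.mul 5 (Nat.land (Nat.shiftRight b 85) 31))) 31) (Nat.mul 32 (Nat.add (Nat.land (Nat.shiftRight a (Nat.mul 5 (Nat.land (Nat.shiftRight b 90) 31))) 31) (Nat.mul 32 (Nat.add (Nat.land (Nat.shiftRight a (Nat.mul 5 (Nat.land (Nat.shiftRight b 95) 31))) 31) (Nat.mul 32 (Nat.add (Nat.land (Nat.shiftRight a (Nat.mul 5 (Nat.land (Nat.shiftRight b 100) 31))) 31) (Nat.mul 32 (Nat.add (Nat.land (Nat.shiftRight a (Nat.mul 5 (Nat.land (Nat.shiftRight b 105) 31))) 31) (Nat.mul 32 (Nat.add (Nat.land (Nat.shiftRight a (Nat.mul 5 (Nat.land (Nat.shiftRight b 110) 31))) 31) (Nat.mul 32 (Nat.add (Nat.land (Nat.shiftRight a (Nat.mul 5 (Nat.land (Nat.shiftRight b 115) 31))) 31) (Nat.mul 32 0)))))))))))))))))))))))))))))))))))))))))))))))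

theorem mulF_eq_mulP (a b : ℕ) : mulF a b = mulP a b := rfl

theorem pk_mul (σ τ : P) : pk (σ * τ) = mulF (pk σ) (pk τ) := by
  rw [mulF_eq_mulP, pk, pk, pk, toL_mul, mulP_pack (toL_entries σ) (toL_entries τ) (toL_length τ)]

theorem pk_inj {σ τ : P} (h : pk σ = pk τ) : σ = τ := by
  apply eq_of_toL_eq
  exact packL_inj (toL_entries σ) (toL_entries τ) (by rw [toL_length, toL_length]) h

theorem getP_pk (σ : P) (i : ℕ) : getP (pk σ) i = (toL (σ : GolayPt → GolayPt)).getD i 0 :=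
  getP_packL _ (toL_entries σ) i

/-- The packed form of the identity. -/
def idP : ℕ := nat_lit 984818244535754528103549039458486304

theorem idP_eq : idP = packL (List.range' 0 24) := by decide +kernel

theorem pk_one : pk 1 = idP := by
  rw [pk, show toL ((1 : P) : GolayPt → GolayPt) = idL from toL_one]
  decide +kernel

/-! ### The number of fixed points -/

/-- The union of the shifts of a number, which has a set lowest bit in each nonzero field of five bits. -/
def gF (y : ℕ) : ℕ :=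
  Nat.lor y (Nat.lor (Nat.shiftRight y 1) (Nat.lor (Nat.shiftRight y 2) (Nat.lor (Nat.shiftRight y 3) (Nat.shiftRight y 4))))

/-- The lowest bits of the fields. -/
def mF : ℕ → ℕ
  | 0 => 0
  | n + 1 => 1 + 32 * mF n

/-- The number of fixed points of a packed permutation. -/
noncomputable def fixF (x : ℕ) : ℕ :=
  forceL (Nat.xor x (nat_lit 984818244535754528103549039458486304)) fun y =>
    Nat.sub (nat_lit 24) (Nat.mod (Nat.land (Nat.lor y (Nat.lor (Nat.shiftRight y 1) (Nat.lor (Nat.shiftRight y 2) (Nat.lor (Nat.shiftRight y 3) (Nat.shiftRight y 4))))) (nat_lit 42878322444674705577542163234849825)) 31)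

/-- The number of nonzero fields of a number. -/
def nzc : ℕ → ℕ → ℕ
  | 0, _ => 0
  | n + 1, y => (if y % 32 = 0 then 0 else 1) + nzc n (y / 32)

theorem nzc_le (n y : ℕ) : nzc n y ≤ n := by
  induction n generalizing y with
  | zero => simp [nzc]
  | succ n ih =>
    have := ih (y / 32)
    simp only [nzc]
    split_ifs <;> omega

theorem or_mod_two (a b : ℕ) : (a ||| b) % 2 = 0 ↔ a % 2 = 0 ∧ b % 2 = 0 := by
  have h := Nat.or_mod_two_pow (a := a) (b := b) (n := 1)
  rw [pow_one] at h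
  rw [h]
  rcases Nat.mod_two_eq_zero_or_one a with h1 | h1 <;> rcases Nat.mod_two_eq_zero_or_one b with h2 | h2 <;>
    simp [h1, h2]

theorem gF_eq (y : ℕ) : gF y = y ||| (y / 2 ||| (y / 4 ||| (y / 8 ||| y / 16))) := by
  simp only [gF]
  show y ||| (y >>> 1 ||| (y >>> 2 ||| (y >>> 3 ||| y >>> 4))) = _
  simp only [Nat.shiftRight_eq_div_pow]

theorem gF_mod_two (y : ℕ) : gF y % 2 = if y % 32 = 0 then 0 else 1 := by
  have key : gF y % 2 = 0 ↔ y % 32 = 0 := by
    rw [gF_eq]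
    simp only [or_mod_two]
    omega
  split_ifs with h
  · exact key.2 h
  · have := key.not.2 h
    omega

theorem gF_div (y : ℕ) : gF y / 32 = gF (y / 32) := by
  rw [gF_eq, gF_eq]
  have h : ∀ a b : ℕ, (a ||| b) / 32 = a / 32 ||| b / 32 := fun a b => by
    have := Nat.or_div_two_pow (a := a) (b := b) (n := 5)
    simpa using this
  simp only [h]
  have e1 : y / 2 / 32 = y / 32 / 2 := by omega
  have e2 : y / 4 / 32 = y / 32 / 4 := by omega
  have e3 : y / 8 / 32 = y / 32 / 8 := by omega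
  have e4 : y / 16 / 32 = y / 32 / 16 := by omega
  rw [e1, e2, e3, e4]

theorem and_mF_succ (y n : ℕ) :
    (gF y &&& mF (n + 1)) = (if y % 32 = 0 then 0 else 1) + 32 * (gF (y / 32) &&& mF n) := by
  set z := gF y &&& mF (n + 1) with hz
  have h1 : z % 32 = gF y % 2 := by
    have h := Nat.and_mod_two_pow (a := gF y) (b := mF (n + 1)) (n := 5)
    have h2 : mF (n + 1) % 2 ^ 5 = 1 := by
      simp only [mF]
      omega
    rw [h2, Nat.and_one_is_mod] at h
    have h3 : gF y % 2 ^ 5 % 2 = gF y % 2 := by omega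
    rw [h3] at h
    simpa using h
  have h2 : z / 32 = gF (y / 32) &&& mF n := by
    have h := Nat.and_div_two_pow (a := gF y) (b := mF (n + 1)) (n := 5)
    have h3 : mF (n + 1) / 2 ^ 5 = mF n := by
      simp only [mF]
      omega
    rw [h3] at h
    have h4 : gF y / 2 ^ 5 = gF (y / 32) := by
      rw [← gF_div]
      rfl
    rw [h4] at h
    simpa using h
  rw [gF_mod_two] at h1
  rw [← h2, ← h1]
  omega

theorem and_mF_mod (n y : ℕ) : (gF y &&& mF n) % 31 = nzc n y % 31 := by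
  induction n generalizing y with
  | zero => simp [mF, nzc]
  | succ n ih =>
    rw [and_mF_succ]
    have := ih (y / 32)
    simp only [nzc]
    split_ifs <;> omega

theorem xor_mod_thirtytwo (a b : ℕ) : (a ^^^ b) % 32 = (a % 32) ^^^ (b % 32) := by
  have := Nat.xor_mod_two_pow (a := a) (b := b) (n := 5)
  simpa using this

theorem xor_div_thirtytwo (a b : ℕ) : (a ^^^ b) / 32 = (a / 32) ^^^ (b / 32) := by
  have := Nat.xor_div_two_pow (a := a) (b := b) (n := 5)
  simpa using this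

theorem nzc_add_filter (x : ℕ) (n i : ℕ) (hi : i + n ≤ 32) :
    nzc n ((x >>> (5 * i)) ^^^ packL (List.range' i n)) +
      ((List.range' i n).filter (fun j => getP x j == j)).length = n := by
  induction n generalizing i with
  | zero => simp [nzc]
  | succ n ih =>
    have h1 := ih (i + 1) (by omega)
    rw [List.range'_succ, List.filter_cons]
    set X := x >>> (5 * i) with hX
    have hQ : packL (i :: List.range' (i + 1) n) = i + 32 * packL (List.range' (i + 1) n) := rfl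
    rw [hQ]
    set Q := packL (List.range' (i + 1) n) with hQdef
    have h2 : (X ^^^ (i + 32 * Q)) % 32 = (X % 32) ^^^ i := by
      rw [xor_mod_thirtytwo]
      congr 1
      omega
    have h3 : (X ^^^ (i + 32 * Q)) / 32 = (X / 32) ^^^ Q := by
      rw [xor_div_thirtytwo]
      congr 1
      omega
    have h4 : X / 32 = x >>> (5 * (i + 1)) := by
      rw [hX, Nat.shiftRight_eq_div_pow, Nat.shiftRight_eq_div_pow, Nat.div_div_eq_div_mul]
      congr 1
      rw [mul_add, pow_add]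
      norm_num
    have h5 : getP x i = X % 32 := by
      show Nat.land (Nat.shiftRight x (Nat.mul 5 i)) 31 = _
      show (x >>> (5 * i)) &&& 31 = _
      exact Nat.and_two_pow_sub_one_eq_mod _ 5
    simp only [nzc]
    rw [h2, h3, h4]
    have h6 : (X % 32) ^^^ i = 0 ↔ X % 32 = i := Nat.xor_eq_zero_iff
    by_cases h8 : X % 32 = i
    · have h10 : (getP x i == i) = true := by rw [h5, h8]; simp
      rw [if_pos (h6.2 h8), if_pos h10, List.length_cons]
      omega
    · have h9 : ¬ (X % 32) ^^^ i = 0 := fun h => h8 (h6.1 h)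
      have h10 : ¬ (getP x i == i) = true := by rw [h5]; simpa using h8
      rw [if_neg h9, if_neg h10]
      omega

theorem fixF_eq_filter (x : ℕ) : fixF x = ((List.range' 0 24).filter (fun j => getP x j == j)).length := by
  have h1 := nzc_add_filter x 24 0 (by norm_num)
  rw [← idP_eq, Nat.mul_zero, Nat.shiftRight_zero] at h1
  have h2 : fixF x = 24 - nzc 24 (x ^^^ idP) := by
    have h3 : fixF x = 24 - ((gF (x ^^^ idP) &&& mF 24) % 31) := rfl
    rw [h3, and_mF_mod, Nat.mod_eq_of_lt]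
    have := nzc_le 24 (x ^^^ idP)
    omega
  omega

/-- The number of fixed points of a permutation. -/
def cf (σ : P) : ℕ := (Finset.univ.filter fun p => σ p = p).card

theorem fixF_pk (σ : P) : fixF (pk σ) = cf σ := by
  rw [fixF_eq_filter, cf, card_fix_eq, fixCountL, ← List.range_eq_range' ]
  congr 2
  funext j
  rw [getP_pk]

theorem cf_conj (g t : P) : cf (g * t * g⁻¹) = cf t := card_fix_conj g t

theorem cf_inv (t : P) : cf t⁻¹ = cf t := by
  unfold cf
  congr 1
  ext p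
  simp only [Finset.mem_filter, Finset.mem_univ, true_and]
  rw [Equiv.Perm.inv_eq_iff_eq]
  exact eq_comm

/-! ### The type -/

/-- The index of the type from the numbers of fixed points of the powers. -/
noncomputable def psi (f1 f2 f3 f4 f6 : ℕ) : ℕ :=
  ifB (Nat.beq f1 24) 0 <|
  ifB (Nat.beq f1 8) 1 <|
  ifB (Nat.beq f1 6) 3 <|
  ifB (Nat.beq f1 3) 11 <|
  ifB (Nat.beq f1 4) (ifB (Nat.beq f2 8) 5 8) <|
  ifB (Nat.beq f1 2) (ifB (Nat.beq f2 6) 9 (ifB (Nat.beq f2 4) 12 14)) <|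
  ifB (Nat.beq f1 1) (ifB (Nat.beq f2 3) 17 (ifB (Nat.beq f3 4) 18 20)) <|
  ifB (Nat.beq f2 24) 2 <|
  ifB (Nat.beq f2 8) 6 <|
  ifB (Nat.beq f2 4) 13 <|
  ifB (Nat.beq f2 2) 15 <|
  ifB (Nat.beq f3 24) 4 <|
  ifB (Nat.beq f3 3) 19 <|
  ifB (Nat.beq f4 24) 7 <|
  ifB (Nat.beq f6 24) 10 16

/-- The type of a packed permutation, computing only the powers which are needed. -/
noncomputable def tauF (x : ℕ) : ℕ :=
  forceL (fixF x) fun f1 =>
  ifB (Nat.beq f1 24) 0 <|
  ifB (Nat.beq f1 8) 1 <|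
  ifB (Nat.beq f1 6) 3 <|
  ifB (Nat.beq f1 3) 11 <|
  forceL (mulF x x) fun x2 =>
  forceL (fixF x2) fun f2 =>
  ifB (Nat.beq f1 4) (ifB (Nat.beq f2 8) 5 8) <|
  ifB (Nat.beq f1 2) (ifB (Nat.beq f2 6) 9 (ifB (Nat.beq f2 4) 12 14)) <|
  ifB (Nat.beq f1 1) (ifB (Nat.beq f2 3) 17 (ifB (Nat.beq (fixF (mulF x x2)) 4) 18 20)) <|
  ifB (Nat.beq f2 24) 2 <|
  ifB (Nat.beq f2 8) 6 <|
  ifB (Nat.beq f2 4) 13 <|
  ifB (Nat.beq f2 2) 15 <|
  forceL (fixF (mulF x x2)) fun f3 =>
  ifB (Nat.beq f3 24) 4 <|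
  ifB (Nat.beq f3 3) 19 <|
  forceL (mulF x2 x2) fun x4 =>
  ifB (Nat.beq (fixF x4) 24) 7 <|
  ifB (Nat.beq (fixF (mulF x2 x4)) 24) 10 16

theorem tauF_eq (x : ℕ) : tauF x = psi (fixF x) (fixF (mulF x x)) (fixF (mulF x (mulF x x)))
    (fixF (mulF (mulF x x) (mulF x x))) (fixF (mulF (mulF x x) (mulF (mulF x x) (mulF x x)))) := rfl

theorem tauF_pk (σ : P) : tauF (pk σ) = psi (cf σ) (cf (σ * σ)) (cf (σ * (σ * σ))) (cf (σ * σ * (σ * σ)))
    (cf (σ * σ * (σ * σ * (σ * σ)))) := by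
  rw [tauF_eq]
  simp only [← pk_mul, fixF_pk]

theorem tauF_conj (g h : P) : tauF (pk (h * g * h⁻¹)) = tauF (pk g) := by
  rw [tauF_pk, tauF_pk]
  have e : ∀ a b : P, (h * a * h⁻¹) * (h * b * h⁻¹) = h * (a * b) * h⁻¹ := fun a b => by group
  simp only [e, cf_conj]

theorem tauF_inv (g : P) : tauF (pk g⁻¹) = tauF (pk g) := by
  rw [tauF_pk, tauF_pk]
  have e1 : g⁻¹ * g⁻¹ = (g * g)⁻¹ := by group
  have e2 : g⁻¹ * (g * g)⁻¹ = (g * (g * g))⁻¹ := by group
  have e3 : (g * g)⁻¹ * (g * g)⁻¹ = (g * g * (g * g))⁻¹ := by group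
  have e4 : (g * g)⁻¹ * (g * g * (g * g))⁻¹ = (g * g * (g * g * (g * g)))⁻¹ := by group
  simp only [e1, e2, e3, e4, cf_inv]

end Cfsg.Agent.Lib.Compute.SB
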