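import Cfsg.Agent.Lib.Compute.M24Fast

/-!
# Finite sets of numbers as binary trees, for kernel computations

A tree keeps a large list of numbers with small recursion depth.  Lookups, checks and the parity of a count are
computed by the kernel on the literals of the tree.  The functions are written with the recursors, which the kernel
reduces directly.
-/

set_option autoImplicit false

namespace Cfsg.Agent.Lib.Compute.SB

universe u

/-- Evaluate a number to a literal, and go on with the literal. -/
noncomputable def forceL {α : Sort u} (v : ℕ) (c : ℕ → α) : α :=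
  Nat.rec (motive := fun _ => α) (c 0) (fun m _ => c m) (Nat.succ v)

theorem forceL_eq {α : Sort u} (v : ℕ) (c : ℕ → α) : forceL v c = c v := rfl

/-- A conditional. -/
noncomputable def ifB {α : Sort u} (c : Bool) (a b : α) : α := Bool.rec (motive := fun _ => α) b a c

theorem ifB_true {α : Sort u} (a b : α) : ifB true a b = a := rfl
theorem ifB_false {α : Sort u} (a b : α) : ifB false a b = b := rfl

theorem ifB_eq {α : Sort u} (c : Bool) (a b : α) : ifB c a b = bif c then a else b := by
  cases c <;> rfl

/-- Binary trees of numbers. -/
inductive PTree where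
  | leaf : PTree
  | node (l : PTree) (k : ℕ) (r : PTree) : PTree

namespace PTree

/-- The keys in order. -/
def toList : PTree → List ℕ
  | leaf => []
  | node l k r => l.toList ++ k :: r.toList

/-- Search in an ordered tree. -/
noncomputable def find (x : ℕ) (t : PTree) : Bool :=
  PTree.rec (motive := fun _ => Bool) false
    (fun _ k _ ihl ihr => ifB (Nat.blt x k) ihl (ifB (Nat.blt k x) ihr true)) t

theorem mem_of_find {x : ℕ} : ∀ {t : PTree}, find x t = true → x ∈ t.toList
  | leaf, h => by simp [find] at h
  | node l k r, h => by
    have h' : ifB (Nat.blt x k) (find x l) (ifB (Nat.blt k x) (find x r) true) = true := h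
    simp only [toList, List.mem_append, List.mem_cons]
    by_cases h1 : Nat.blt x k = true
    · rw [h1, ifB_true] at h'
      exact Or.inl (mem_of_find h')
    · rw [Bool.not_eq_true] at h1
      rw [h1, ifB_false] at h'
      by_cases h2 : Nat.blt k x = true
      · rw [h2, ifB_true] at h'
        exact Or.inr (Or.inr (mem_of_find h'))
      · rw [Bool.not_eq_true] at h2
        have h3 : ¬ x < k := by simpa [← Nat.blt_eq] using h1
        have h4 : ¬ k < x := by simpa [← Nat.blt_eq] using h2
        exact Or.inr (Or.inl (by omega))

/-- A test on all the keys. -/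
noncomputable def allK (f : ℕ → Bool) (t : PTree) : Bool :=
  PTree.rec (motive := fun _ => Bool) true
    (fun _ k _ ihl ihr => ifB ihl (ifB (f k) ihr false) false) t

theorem allK_iff {f : ℕ → Bool} : ∀ {t : PTree}, allK f t = true ↔ ∀ x ∈ t.toList, f x = true
  | leaf => by simp [allK, toList]
  | node l k r => by
    have h : allK f (node l k r) = ifB (allK f l) (ifB (f k) (allK f r) false) false := rfl
    rw [h]
    simp only [toList, List.mem_append, List.mem_cons]
    constructor
    · intro h1
      cases h2 : allK f l
      · rw [h2, ifB_false] at h1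
        exact absurd h1 (by decide)
      · rw [h2, ifB_true] at h1
        cases h3 : f k
        · rw [h3, ifB_false] at h1
          exact absurd h1 (by decide)
        · rw [h3, ifB_true] at h1
          rintro x (hx | rfl | hx)
          · exact allK_iff.1 h2 x hx
          · exact h3
          · exact allK_iff.1 h1 x hx
    · intro h1
      have h2 : allK f l = true := allK_iff.2 fun x hx => h1 x (Or.inl hx)
      have h3 : f k = true := h1 k (Or.inr (Or.inl rfl))
      have h4 : allK f r = true := allK_iff.2 fun x hx => h1 x (Or.inr (Or.inr hx))
      rw [h2, h3, h4]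
      rfl

/-- The keys are strictly between two bounds, in order. -/
noncomputable def bdd (t : PTree) : ℕ → ℕ → Bool :=
  PTree.rec (motive := fun _ => ℕ → ℕ → Bool) (fun _ _ => true)
    (fun _ k _ ihl ihr lo hi => ifB (Nat.blt lo k) (ifB (Nat.blt k hi) (ifB (ihl lo k) (ihr k hi) false) false) false) t

theorem bdd_spec : ∀ {t : PTree} {lo hi : ℕ}, bdd t lo hi = true →
    t.toList.Nodup ∧ ∀ x ∈ t.toList, lo < x ∧ x < hi
  | leaf, _, _, _ => by simp [toList]
  | node l k r, lo, hi, h => by
    have h0 : ifB (Nat.blt lo k) (ifB (Nat.blt k hi) (ifB (bdd l lo k) (bdd r k hi) false) false) false = true := h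
    have ifB_and : ∀ (a : Bool) (b : Bool), ifB a b false = true → a = true ∧ b = true := by
      intro a b
      cases a <;> cases b <;> simp [ifB_true, ifB_false]
    obtain ⟨h1, h0⟩ := ifB_and _ _ h0
    obtain ⟨h2, h0⟩ := ifB_and _ _ h0
    obtain ⟨h3, h4⟩ := ifB_and _ _ h0
    rw [Nat.blt_eq] at h1 h2
    obtain ⟨nl, bl⟩ := bdd_spec h3
    obtain ⟨nr, br⟩ := bdd_spec h4
    simp only [toList]
    constructor
    · rw [List.nodup_append]
      refine ⟨nl, ?_, ?_⟩
      · rw [List.nodup_cons]
        refine ⟨fun hk => ?_, nr⟩
        have := (br k hk).1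
        omega
      · intro a ha b hb
        have h5 := (bl a ha).2
        rcases List.mem_cons.1 hb with rfl | hb
        · omega
        · have := (br b hb).1
          omega
    · intro x hx
      rcases List.mem_append.1 hx with hx | hx
      · have := bl x hx
        omega
      · rcases List.mem_cons.1 hx with rfl | hx
        · omega
        · have := br x hx
          omega

/-- The exclusive or of the values of a function on the keys, with forced evaluation. -/
noncomputable def xorG (f : ℕ → ℕ) (t : PTree) : ℕ → ℕ :=
  PTree.rec (motive := fun _ => ℕ → ℕ) (fun acc => acc)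
    (fun _ k _ ihl ihr acc => forceL (ihl acc) fun a1 => forceL (Nat.xor a1 (f k)) fun a2 => ihr a2) t

theorem xorG_eq (f : ℕ → ℕ) : ∀ (t : PTree) (acc : ℕ), xorG f t acc = (t.toList.map f).foldl Nat.xor acc
  | leaf, acc => rfl
  | node l k r, acc => by
    have h : xorG f (node l k r) acc = xorG f r (Nat.xor (xorG f l acc) (f k)) := rfl
    rw [h, xorG_eq f r, xorG_eq f l]
    simp only [toList, List.map_append, List.map_cons, List.foldl_append, List.foldl_cons]

end PTree

/-- The bit of the exclusive or of powers of two is the parity of a count. -/
theorem testBit_foldl_xor (g : ℕ → ℕ) (s : ℕ) : ∀ (L : List ℕ) (acc : ℕ),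
    ((L.map (fun n => 2 ^ g n)).foldl Nat.xor acc).testBit s =
      (acc.testBit s ^^ decide (Odd (L.countP (fun n => g n == s))))
  | [], acc => by simp
  | a :: L, acc => by
    simp only [List.map_cons, List.foldl_cons]
    rw [testBit_foldl_xor g s L]
    have h1 : (Nat.xor acc (2 ^ g a)).testBit s = (acc.testBit s ^^ decide (g a = s)) := by
      show (acc ^^^ 2 ^ g a).testBit s = _
      rw [Nat.testBit_xor, Nat.testBit_two_pow]
    rw [h1, List.countP_cons]
    by_cases h : g a = s
    · have h2 : ∀ c : ℕ, decide (Odd (c + 1)) = !decide (Odd c) := fun c => by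
        by_cases hc : Odd c <;> simp [hc, Nat.odd_add_one]
      simp only [h, decide_true, beq_self_eq_true, if_true, h2]
      cases acc.testBit s <;> cases decide (Odd (L.countP fun n => g n == s)) <;> rfl
    · have h' : (g a == s) = false := by simpa using h
      simp [h, h']

/-- The parity of a count from the exclusive or of powers of two on a tree. -/
theorem testBit_xorG (g : ℕ → ℕ) (s : ℕ) (t : PTree) :
    (PTree.xorG (fun n => Nat.pow 2 (g n)) t 0).testBit s = decide (Odd (t.toList.countP (fun n => g n == s))) := by
  rw [PTree.xorG_eq]
  have := testBit_foldl_xor g s t.toList 0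
  simpa using this

end Cfsg.Agent.Lib.Compute.SB
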